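import Mathlib

/-!
2-groups with an involutory automorphism `α` and an automorphism `e` of order `q - 1` which commutes
with `α` and is transitive on the elementary abelian group of fixed points of `α` of order `q`: a
nonabelian such group has order `q ^ 3` and its centre is the fixed point group.

Sections on which `e` acts as multiplication by a generator of the multiplicative group of the field
with `q` elements are described by `Lin`; the main tool is that an equivariant bilinear pairing of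
such sections satisfies `f (t a) b = f a (t b)`.
-/

set_option autoImplicit false

namespace Cfsg.Agent.Lib.PairTwo

open scoped commutatorElement

universe u v w

variable {F : Type} [Field F] [Fintype F] [CharP F 2]

/-- `g` generates the multiplicative group of `F`, a field with `2 ^ n` elements. -/
structure Gen (g : F) (n : ℕ) : Prop where
  two_le : 2 ≤ n
  card : Fintype.card F = 2 ^ n
  gen : ∀ t : F, t ≠ 0 → ∃ k : ℕ, g ^ k = t

namespace Gen

variable {g : F} {n : ℕ} (hg : Gen g n)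
include hg

omit [CharP F 2] in
theorem four_le : 4 ≤ 2 ^ n := by
  calc 4 = 2 ^ 2 := by norm_num
    _ ≤ 2 ^ n := Nat.pow_le_pow_right (by norm_num) hg.two_le

omit [CharP F 2] in
theorem exists_ne : ∃ t : F, t ≠ 0 ∧ t ≠ 1 := by
  classical
  by_contra! hall
  have := Finset.card_le_card (show (Finset.univ : Finset F) ⊆ {0, 1} from fun x _ => by
    by_cases h : x = 0 <;> simp [h, hall x])
  rw [Finset.card_univ, hg.card] at this
  have := this.trans Finset.card_le_two
  have := hg.four_le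
  omega

omit [CharP F 2] in
theorem ne_zero : g ≠ 0 := by
  rintro rfl
  obtain ⟨t, h0, h1⟩ := hg.exists_ne
  obtain ⟨k, hk⟩ := hg.gen t h0
  rcases k with _ | k
  · exact h1 (by simpa using hk.symm)
  · exact h0 (by rw [← hk, zero_pow (by omega)])

omit [CharP F 2] in
theorem ne_one : g ≠ 1 := by
  rintro rfl
  obtain ⟨t, h0, h1⟩ := hg.exists_ne
  obtain ⟨k, hk⟩ := hg.gen t h0
  exact h1 (by rw [← hk, one_pow])

omit [CharP F 2] in
theorem pow_period : g ^ (2 ^ n - 1) = 1 := by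
  rw [← hg.card]; exact FiniteField.pow_card_sub_one_eq_one g hg.ne_zero

omit [CharP F 2] in
theorem period_pos : 0 < 2 ^ n - 1 := by have := hg.four_le; omega

omit [CharP F 2] in
theorem orderOf_eq : orderOf g = 2 ^ n - 1 := by
  classical
  refine le_antisymm (Nat.le_of_dvd hg.period_pos (orderOf_dvd_of_pow_eq_one hg.pow_period)) ?_
  have h : (Finset.univ.erase (0 : F)) ⊆ (Finset.range (orderOf g)).image (fun k => g ^ k) := by
    intro t ht
    obtain ⟨k, hk⟩ := hg.gen t (Finset.ne_of_mem_erase ht)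
    refine Finset.mem_image.2 ⟨k % orderOf g, Finset.mem_range.2 (Nat.mod_lt _ ?_), ?_⟩
    · exact orderOf_pos_iff.2 (isOfFinOrder_iff_pow_eq_one.2 ⟨_, hg.period_pos, hg.pow_period⟩)
    · rw [pow_mod_orderOf, hk]
  have := (Finset.card_le_card h).trans Finset.card_image_le
  rwa [Finset.card_erase_of_mem (Finset.mem_univ _), Finset.card_univ, hg.card, Finset.card_range] at this

omit [CharP F 2] in
theorem pow_ne_one {d : ℕ} (h0 : 0 < d) (hd : d < 2 ^ n - 1) : g ^ d ≠ 1 :=
  pow_ne_one_of_lt_orderOf (by omega) (by rw [hg.orderOf_eq]; exact hd)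

omit [CharP F 2] in
theorem exists_half (k : ℕ) : ∃ k', g ^ (k' + k') = g ^ k ∧ ∃ j, k' + k' = k + j * (2 ^ n - 1) := by
  have hodd : 2 ^ n - 1 + 1 = 2 ^ (n - 1) + 2 ^ (n - 1) := by
    have h2 : 2 ^ n = 2 ^ (n - 1) + 2 ^ (n - 1) := by
      conv_lhs => rw [show n = (n - 1) + 1 by have := hg.two_le; omega]
      rw [pow_succ]; omega
    have := hg.four_le
    omega
  have e : k * 2 ^ (n - 1) + k * 2 ^ (n - 1) = k + k * (2 ^ n - 1) := by
    rw [← mul_add, ← hodd, mul_add, mul_one, add_comm]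
  refine ⟨k * 2 ^ (n - 1), ?_, k, e⟩
  rw [e, pow_add, mul_comm k (2 ^ n - 1), pow_mul, hg.pow_period, one_pow, mul_one]

end Gen

variable {R : Type u} [Group R]

/-- On the section `M / T`, the automorphism `e` is multiplication by `g`. -/
structure Lin (g : F) (e : MulAut R) (M T : Subgroup R) : Prop where
  mem : ∀ x ∈ M, e x ∈ M
  memT : ∀ x ∈ T, e x ∈ T
  sq : ∀ x ∈ M, x * x ∈ T
  eqv : ∀ k l : ℕ, g ^ k = g ^ l → ∀ x ∈ M, ((e ^ k) x)⁻¹ * (e ^ l) x ∈ T
  tri : ∀ k l m : ℕ, g ^ k + g ^ l = g ^ m → ∀ x ∈ M, ((e ^ k) x * (e ^ l) x)⁻¹ * (e ^ m) x ∈ T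

theorem pow_add_apply (e : MulAut R) (k l : ℕ) (x : R) : (e ^ (k + l)) x = (e ^ k) ((e ^ l) x) := by
  rw [pow_add]; rfl

theorem pow_mem_of {e : MulAut R} {M : Subgroup R} (h : ∀ x ∈ M, e x ∈ M) (k : ℕ) :
    ∀ x ∈ M, (e ^ k) x ∈ M := by
  induction k with
  | zero => intro x hx; simpa using hx
  | succ k ih => intro x hx; rw [pow_succ]; exact ih _ (h x hx)

theorem mem_of_pow_mem [Finite R] {e : MulAut R} {T : Subgroup R} (h : ∀ x ∈ T, e x ∈ T) {k : ℕ} {x : R}
    (hx : (e ^ k) x ∈ T) : x ∈ T := by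
  have hinj : Function.Injective (fun y : T => (⟨(e ^ k) y, pow_mem_of h k y y.2⟩ : T)) := fun a b hab =>
    Subtype.ext ((e ^ k).injective (congrArg Subtype.val hab))
  obtain ⟨y, hy⟩ := (Finite.injective_iff_surjective.1 hinj) ⟨_, hx⟩
  rw [← (e ^ k).injective (congrArg Subtype.val hy)]
  exact y.2

theorem inv_of_sq {U : Subgroup R} (h : ∀ x ∈ U, x * x = 1) {x : R} (hx : x ∈ U) : x⁻¹ = x :=
  inv_eq_of_mul_eq_one_right (h x hx)

theorem comm_of_sq {U : Subgroup R} (h : ∀ x ∈ U, x * x = 1) {x y : R} (hx : x ∈ U) (hy : y ∈ U) :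
    x * y = y * x := by
  rw [← inv_of_sq h (U.mul_mem hx hy), mul_inv_rev, inv_of_sq h hx, inv_of_sq h hy]

theorem comm_mul_left {a b y : R} (h : ⁅b, y⁆ ∈ Subgroup.center R) : ⁅a * b, y⁆ = ⁅a, y⁆ * ⁅b, y⁆ := by
  calc ⁅a * b, y⁆ = a * ⁅b, y⁆ * a⁻¹ * ⁅a, y⁆ := by simp only [commutatorElement_def]; group
    _ = ⁅b, y⁆ * ⁅a, y⁆ := by rw [Subgroup.mem_center_iff.1 h a, mul_inv_cancel_right]
    _ = _ := (Subgroup.mem_center_iff.1 h _).symm

theorem comm_mul_right {a b y : R} (h : ⁅y, b⁆ ∈ Subgroup.center R) : ⁅y, a * b⁆ = ⁅y, a⁆ * ⁅y, b⁆ := by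
  calc ⁅y, a * b⁆ = ⁅y, a⁆ * (a * ⁅y, b⁆ * a⁻¹) := by simp only [commutatorElement_def]; group
    _ = _ := by rw [Subgroup.mem_center_iff.1 h a, mul_inv_cancel_right]

namespace Lin

variable {g : F} {n : ℕ} (hg : Gen g n) {e : MulAut R} {M T : Subgroup R} (hL : Lin g e M T)
include hg hL

omit [CharP F 2] in
theorem fix [Finite R] [T.Normal] {x : R} (hx : x ∈ M) {k : ℕ} (hk : g ^ k ≠ 1) [CharP F 2]
    (h : x⁻¹ * (e ^ k) x ∈ T) : x ∈ T := by
  obtain ⟨m, hm⟩ := hg.gen (g ^ k + g ^ 0) (by rw [pow_zero]; exact fun h0 => hk (CharTwo.add_eq_zero.1 h0))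
  have h1 := hL.tri k 0 m hm.symm x hx
  rw [pow_zero, MulAut.one_apply] at h1
  have h2 : (e ^ k) x * x ∈ T := by
    have := T.mul_mem (hL.sq x hx) (Subgroup.Normal.conj_mem ‹_› _ h x⁻¹)
    rw [inv_inv] at this
    rwa [show x * x * (x⁻¹ * (x⁻¹ * (e ^ k) x) * x) = (e ^ k) x * x by group] at this
  have h3 := T.mul_mem h2 h1
  rw [mul_inv_cancel_left] at h3
  exact mem_of_pow_mem hL.memT h3

/-- The orbit of a nontrivial element of `M / T` together with the trivial element. -/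
theorem inj [Finite R] [T.Normal] {x : R} (hx : x ∈ M) (hxT : x ∉ T) :
    Function.Injective (fun o : Option (Fin (2 ^ n - 1)) =>
      o.elim (1 : R ⧸ T) fun i => (((e ^ (i : ℕ)) x : R) : R ⧸ T)) := by
  have h1 : ∀ i : Fin (2 ^ n - 1), (((e ^ (i : ℕ)) x : R) : R ⧸ T) ≠ 1 := fun i h =>
    hxT (mem_of_pow_mem hL.memT ((QuotientGroup.eq_one_iff _).1 h))
  have key : ∀ i j : Fin (2 ^ n - 1), (i : ℕ) ≤ j →
      (((e ^ (i : ℕ)) x : R) : R ⧸ T) = (((e ^ (j : ℕ)) x : R) : R ⧸ T) → i = j := by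
    intro i j hij h
    rw [QuotientGroup.eq] at h
    by_contra hne
    have hd : g ^ ((j : ℕ) - i) ≠ 1 := hg.pow_ne_one (by
      have : (i : ℕ) ≠ j := fun e => hne (Fin.ext e)
      omega) (by have := j.2; omega)
    rw [show (j : ℕ) = i + (j - i) by omega, pow_add_apply, ← map_inv, ← map_mul] at h
    exact hxT (hL.fix hg hx hd (mem_of_pow_mem hL.memT h))
  rintro (_ | i) (_ | j) h
  · rfl
  · exact absurd h.symm (h1 j)
  · exact absurd h (h1 i)
  · rcases le_total (i : ℕ) j with hij | hij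
    · exact congrArg some (key i j hij h)
    · exact (congrArg some (key j i hij h.symm)).symm

theorem le_card [Finite R] [T.Normal] {x : R} (hx : x ∈ M) (hxT : x ∉ T) :
    2 ^ n ≤ Nat.card ↥(M.map (QuotientGroup.mk' T)) := by
  have hmem : ∀ o : Option (Fin (2 ^ n - 1)),
      o.elim (1 : R ⧸ T) (fun i => (((e ^ (i : ℕ)) x : R) : R ⧸ T)) ∈ M.map (QuotientGroup.mk' T) := by
    rintro (_ | i)
    · exact one_mem _
    · exact ⟨_, pow_mem_of hL.mem _ x hx, rfl⟩
  have := Nat.card_le_card_of_injective (fun o => (⟨_, hmem o⟩ : ↥(M.map (QuotientGroup.mk' T))))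
    fun a b h => hL.inj hg hx hxT (congrArg Subtype.val h)
  rw [Nat.card_eq_fintype_card, Fintype.card_option, Fintype.card_fin] at this
  have := hg.four_le
  omega

theorem exists_pow [Finite R] [T.Normal] (hc : Nat.card ↥(M.map (QuotientGroup.mk' T)) ≤ 2 ^ n) {x y : R}
    (hx : x ∈ M) (hxT : x ∉ T) (hy : y ∈ M) (hyT : y ∉ T) : ∃ k : ℕ, ((e ^ k) x)⁻¹ * y ∈ T := by
  have hmem : ∀ o : Option (Fin (2 ^ n - 1)),
      o.elim (1 : R ⧸ T) (fun i => (((e ^ (i : ℕ)) x : R) : R ⧸ T)) ∈ M.map (QuotientGroup.mk' T) := by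
    rintro (_ | i)
    · exact one_mem _
    · exact ⟨_, pow_mem_of hL.mem _ x hx, rfl⟩
  have hinj : Function.Injective (fun o => (⟨_, hmem o⟩ : ↥(M.map (QuotientGroup.mk' T)))) :=
    fun a b h => hL.inj hg hx hxT (congrArg Subtype.val h)
  have hcard : Nat.card (Option (Fin (2 ^ n - 1))) = 2 ^ n := by
    rw [Nat.card_eq_fintype_card, Fintype.card_option, Fintype.card_fin]
    have := hg.four_le
    omega
  obtain ⟨o, ho⟩ := (hinj.bijective_of_nat_card_le (by rw [hcard]; exact hc)).2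
    ⟨(y : R ⧸ T), ⟨y, hy, rfl⟩⟩
  have ho' := congrArg Subtype.val ho
  rcases o with _ | i
  · exact absurd ((QuotientGroup.eq_one_iff y).1 ho'.symm) hyT
  · exact ⟨i, QuotientGroup.eq.1 ho'⟩

end Lin

/-- The fixed point extension lemma. -/
theorem lin_ext {g : F} {n : ℕ} (hg : Gen g n) [Finite R] {α e : MulAut R} (T : Subgroup R) [T.Normal]
    (hcm : ∀ x, α (e x) = e (α x)) (hαT : ∀ x ∈ T, α x ∈ T) (heT : ∀ x ∈ T, e x ∈ T)
    (hper : e ^ (2 ^ n - 1) = 1) (hsq : ∀ x, x * x ∈ T) (hcom : ∀ x y : R, ⁅x, y⁆ ∈ T)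
    (hinv : ∀ x, α (α x) = x) {E : Subgroup R} (hE : ∀ x, x ∈ E ↔ x⁻¹ * α x ∈ T) (hL : Lin g e E T) :
    Lin g e ⊤ T := by
  set π := QuotientGroup.mk' T with hπ
  have hc : ∀ a b : R ⧸ T, a * b = b * a := fun a b => QuotientGroup.induction_on a fun a =>
    QuotientGroup.induction_on b fun b => commutatorElement_eq_one_iff_mul_comm.1
      ((QuotientGroup.eq_one_iff ⁅a, b⁆).2 (hcom a b))
  have hs : ∀ a : R ⧸ T, a * a = 1 := fun a => QuotientGroup.induction_on a fun a =>
    (QuotientGroup.eq_one_iff (a * a)).2 (hsq a)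
  have hi : ∀ a : R ⧸ T, a⁻¹ = a := fun a => inv_eq_of_mul_eq_one_right (hs a)
  have hlc : ∀ a b c : R ⧸ T, a * (b * c) = b * (a * c) := fun a b c => by rw [← mul_assoc, hc a b, mul_assoc]
  have h0 : ∀ x : R, π x = 1 ↔ x ∈ T := fun x => QuotientGroup.eq_one_iff x
  have hcmk : ∀ (k : ℕ) x, α ((e ^ k) x) = (e ^ k) (α x) := by
    intro k
    induction k with
    | zero => intro x; simp
    | succ k ih => intro x; rw [pow_succ, MulAut.mul_apply, MulAut.mul_apply, ih, hcm]
  -- the congruences for `α` and `e ^ k` modulo `T`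
  have hαc : ∀ x y, π x = π y → π (α x) = π (α y) := fun x y h => by
    rw [hπ, QuotientGroup.mk'_apply, QuotientGroup.mk'_apply, QuotientGroup.eq] at h ⊢
    rw [← map_inv, ← map_mul]; exact hαT _ h
  have hec : ∀ (k : ℕ) x y, π x = π y → π ((e ^ k) x) = π ((e ^ k) y) := fun k x y h => by
    rw [hπ, QuotientGroup.mk'_apply, QuotientGroup.mk'_apply, QuotientGroup.eq] at h ⊢
    rw [← map_inv, ← map_mul]; exact pow_mem_of heT k _ h
  -- operators in the span of the powers of `e` vanishing on fixed points have square zero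
  have main : ∀ D : R → R, (∀ x y, π (D (x * y)) = π (D x) * π (D y)) →
      (∀ x, π (α (D x)) = π (D (α x))) → (∀ x ∈ E, π (D x) = 1) → ∀ x, π (D (D x)) = 1 := by
    intro D hD hDα hDE x
    refine hDE _ ((hE _).2 ((h0 _).1 ?_))
    have h1 : x * α x ∈ E := by
      refine (hE _).2 ((h0 _).1 ?_)
      simp only [map_mul, map_inv, hinv, hi]
      rw [hc (π (α x)) (π x), hs]
    have h2 := hDE _ h1
    rw [hD, ← hDα] at h2
    rw [map_mul, map_inv, hi, h2]
  have cases2 : ∀ k l : ℕ, g ^ k = g ^ l → ∀ x, π ((e ^ (k + k)) x) = π ((e ^ (l + l)) x) := by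
    intro k l h x
    have := main (fun y => (e ^ k) y * (e ^ l) y) (fun a b => by
        simp only [map_mul]; simp only [mul_assoc, hlc]) (fun y => by
        simp only [map_mul, hcmk]) (fun y hy => by
        have h' := (h0 _).2 (hL.eqv k l h y hy)
        rw [map_mul, map_inv, hi] at h'
        rw [map_mul, h']) x
    simp only [map_mul, ← pow_add_apply] at this
    rw [add_comm l k, mul_assoc, ← mul_assoc (π ((e ^ (k + l)) x)) (π ((e ^ (k + l)) x)), hs, one_mul] at this
    rw [← hi (π ((e ^ (l + l)) x))]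
    exact eq_inv_of_mul_eq_one_left this
  have hper' : ∀ k j x, (e ^ (k + j * (2 ^ n - 1))) x = (e ^ k) x := fun k j x => by
    rw [pow_add, mul_comm j, pow_mul, hper, one_pow, mul_one]
  refine ⟨fun x _ => Subgroup.mem_top _, heT, fun x _ => hsq x, ?_, ?_⟩
  · intro k l h x _
    obtain ⟨k', hk', i, hi'⟩ := hg.exists_half k
    obtain ⟨l', hl', j, hj'⟩ := hg.exists_half l
    have he : g ^ k' = g ^ l' := by
      refine frobenius_inj F 2 ?_
      simp only [frobenius_def, pow_two, ← pow_add, hk', hl', h]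
    have := cases2 k' l' he x
    rw [hi', hj', hper', hper'] at this
    rw [← h0, map_mul, map_inv, this, inv_mul_cancel]
  · intro k l m h x _
    obtain ⟨k', hk', i, hi'⟩ := hg.exists_half k
    obtain ⟨l', hl', j, hj'⟩ := hg.exists_half l
    obtain ⟨m', hm', o, ho'⟩ := hg.exists_half m
    have he : g ^ k' + g ^ l' = g ^ m' := by
      refine frobenius_inj F 2 ?_
      simp only [map_add, frobenius_def, pow_two, ← pow_add, hk', hl', hm', h]
    have := main (fun y => (e ^ k') y * (e ^ l') y * (e ^ m') y) (fun a b => by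
        simp only [map_mul]; simp only [mul_assoc, hlc]) (fun y => by
        simp only [map_mul, hcmk]) (fun y hy => by
        have h' := (h0 _).2 (hL.tri k' l' m' he y hy)
        rw [map_mul, map_inv, hi, map_mul] at h'
        rw [map_mul, map_mul, h']) x
    simp only [map_mul, ← pow_add_apply] at this
    rw [add_comm l' k', add_comm m' k', add_comm m' l', hi', hj', ho', hper', hper', hper'] at this
    rw [← h0, map_mul, map_inv, hi, map_mul]
    have hlc2 : ∀ a b : R ⧸ T, a * (a * b) = b := fun a b => by rw [← mul_assoc, hs, one_mul]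
    generalize π ((e ^ (k' + l')) x) = A at this
    generalize π ((e ^ (k' + m')) x) = B at this
    generalize π ((e ^ (l' + m')) x) = C at this
    generalize π ((e ^ k) x) = a at this ⊢
    generalize π ((e ^ l) x) = b at this ⊢
    generalize π ((e ^ m) x) = c at this ⊢
    rw [← this, show a * A * B * (A * b * C) * (B * C * c) = a * b * c by
      simp only [mul_assoc, hlc, hs, hlc2, one_mul, mul_one]]

/-- Equivariant bilinear pairings of sections are balanced. -/
structure Pairing {R' : Type v} [Group R'] {L : Type w} [Group L] (g : F) (e : MulAut R) (e' : MulAut R')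
    (eL : MulAut L) (M T : Subgroup R) (M' T' : Subgroup R') (U : Subgroup L) (f : R → R' → L) : Prop where
  left : Lin g e M T
  right : Lin g e' M' T'
  value : Lin g eL U ⊥
  mem : ∀ x ∈ M, ∀ y ∈ M', f x y ∈ U
  add_left : ∀ x ∈ M, ∀ x' ∈ M, ∀ y ∈ M', f (x * x') y = f x y * f x' y
  add_right : ∀ x ∈ M, ∀ y ∈ M', ∀ y' ∈ M', f x (y * y') = f x y * f x y'
  ker_left : ∀ t ∈ T, t ∈ M → ∀ y ∈ M', f t y = 1
  ker_right : ∀ x ∈ M, ∀ t ∈ T', t ∈ M' → f x t = 1
  equiv : ∀ x ∈ M, ∀ y ∈ M', f (e x) (e' y) = eL (f x y)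

namespace Pairing

variable {R' : Type v} [Group R'] {L : Type w} [Group L] {g : F} {n : ℕ} (hg : Gen g n) {e : MulAut R}
  {e' : MulAut R'} {eL : MulAut L} {M T : Subgroup R} {M' T' : Subgroup R'} {U : Subgroup L}
  {f : R → R' → L} (hP : Pairing g e e' eL M T M' T' U f)
include hP

omit [Fintype F] [CharP F 2] in
theorem sq_one {u : L} (hu : u ∈ U) : u * u = 1 := Subgroup.mem_bot.1 (hP.value.sq u hu)

omit [Fintype F] [CharP F 2] in
theorem congr_left {x x' : R} (hx : x ∈ M) (hx' : x' ∈ M) (h : x⁻¹ * x' ∈ T) {y : R'} (hy : y ∈ M') :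
    f x' y = f x y := by
  have h1 : x⁻¹ * x' ∈ M := M.mul_mem (M.inv_mem hx) hx'
  conv_lhs => rw [← mul_inv_cancel_left x x']
  rw [hP.add_left x hx _ h1 y hy, hP.ker_left _ h h1 y hy, mul_one]

omit [Fintype F] [CharP F 2] in
theorem congr_right {x : R} (hx : x ∈ M) {y y' : R'} (hy : y ∈ M') (hy' : y' ∈ M') (h : y⁻¹ * y' ∈ T') :
    f x y' = f x y := by
  have h1 : y⁻¹ * y' ∈ M' := M'.mul_mem (M'.inv_mem hy) hy'
  conv_lhs => rw [← mul_inv_cancel_left y y']
  rw [hP.add_right x hx y hy _ h1, hP.ker_right x hx _ h h1, mul_one]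

omit [Fintype F] [CharP F 2] in
theorem equiv_pow (k : ℕ) : ∀ x ∈ M, ∀ y ∈ M', f ((e ^ k) x) ((e' ^ k) y) = (eL ^ k) (f x y) := by
  induction k with
  | zero => intro x _ y _; simp
  | succ k ih =>
    intro x hx y hy
    rw [pow_succ, pow_succ, pow_succ, MulAut.mul_apply, MulAut.mul_apply, MulAut.mul_apply,
      ih _ (hP.left.mem x hx) _ (hP.right.mem y hy), hP.equiv x hx y hy]

include hg

theorem swap (k : ℕ) {x : R} (hx : x ∈ M) {y : R'} (hy : y ∈ M') :
    f ((e ^ k) x) y = f x ((e' ^ k) y) := by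
  have hxk := fun j => pow_mem_of hP.left.mem j x hx
  have hyk := fun j => pow_mem_of hP.right.mem j y hy
  by_cases hk : g ^ k = 1
  · have h0 : g ^ 0 = g ^ k := by rw [pow_zero, hk]
    have hl := hP.left.eqv 0 k h0 x hx
    have hr := hP.right.eqv 0 k h0 y hy
    rw [pow_zero, MulAut.one_apply] at hl hr
    rw [hP.congr_left hx (hxk k) hl hy, hP.congr_right hx hy (hyk k) hr]
  · obtain ⟨m, hm⟩ := hg.gen (g ^ k + g ^ 0) (by
      rw [pow_zero]; exact fun h0 => hk (CharTwo.add_eq_zero.1 h0))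
    have hl := hP.left.tri k 0 m hm.symm x hx
    have hr := hP.right.tri k 0 m hm.symm y hy
    rw [pow_zero, MulAut.one_apply] at hl hr
    have hv := hP.value.tri k 0 m hm.symm _ (hP.mem x hx y hy)
    rw [pow_zero, MulAut.one_apply, Subgroup.mem_bot, inv_mul_eq_one] at hv
    have h1 : f ((e ^ m) x) ((e' ^ m) y) =
        f ((e ^ k) x) ((e' ^ k) y) * f ((e ^ k) x) y * (f x ((e' ^ k) y) * f x y) := by
      rw [hP.congr_left (M.mul_mem (hxk k) hx) (hxk m) hl (hyk m),
        hP.congr_right (M.mul_mem (hxk k) hx) (M'.mul_mem (hyk k) hy) (hyk m) hr,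
        hP.add_left _ (hxk k) x hx _ (M'.mul_mem (hyk k) hy),
        hP.add_right _ (hxk k) _ (hyk k) y hy, hP.add_right x hx _ (hyk k) y hy]
    rw [hP.equiv_pow m x hx y hy, hP.equiv_pow k x hx y hy, ← hv, mul_assoc, ← mul_assoc (f ((e ^ k) x) y)] at h1
    have h2 := mul_left_cancel h1
    have h3 : f ((e ^ k) x) y * f x ((e' ^ k) y) = 1 := mul_eq_right.1 h2.symm
    rw [eq_inv_of_mul_eq_one_left h3,
      inv_eq_of_mul_eq_one_right (hP.sq_one (hP.mem _ hx _ (hyk k)))]

theorem dbl (k : ℕ) {x : R} (hx : x ∈ M) {y : R'} (hy : y ∈ M') :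
    f ((e ^ (k + k)) x) y = (eL ^ k) (f x y) := by
  rw [pow_add_apply, hP.swap hg k (pow_mem_of hP.left.mem k x hx) hy, hP.equiv_pow k x hx y hy]

end Pairing

/-- An alternating equivariant pairing of a section of order `q` vanishes. -/
theorem Pairing.line {g : F} {n : ℕ} (hg : Gen g n) [Finite R] {L : Type w} [Group L] {e : MulAut R}
    {eL : MulAut L} {M T : Subgroup R} [T.Normal] {U : Subgroup L} {f : R → R → L}
    (hP : Pairing g e e eL M T M T U f) (halt : ∀ x ∈ M, f x x = 1)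
    (hc : Nat.card ↥(M.map (QuotientGroup.mk' T)) ≤ 2 ^ n) {x y : R} (hx : x ∈ M) (hy : y ∈ M) :
    f x y = 1 := by
  by_cases hxT : x ∈ T
  · exact hP.ker_left x hxT hx y hy
  by_cases hyT : y ∈ T
  · exact hP.ker_right x hx y hyT hy
  obtain ⟨k, hk⟩ := hP.left.exists_pow hg hc hx hxT hy hyT
  obtain ⟨r, hr, -⟩ := hg.exists_half k
  have hxr := fun j => pow_mem_of hP.left.mem j x hx
  rw [hP.congr_right hx (hxr k) hy hk, hP.congr_right hx (hxr (r + r)) (hxr k)
    (hP.left.eqv _ _ hr x hx), pow_add_apply, ← hP.swap hg r hx (hxr r)]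
  exact halt _ (hxr r)

end Cfsg.Agent.Lib.PairTwo
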