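import Cfsg.Agent.Lib.U3Sylow.Basic
import Cfsg.Agent.Lib.Classical.Order
import Mathlib

/-!
Special 2-groups described by a binary quadratic form over a finite field: uniqueness, and the two
models (Sylow 2-subgroups of `PSL(3, q)` and `PSU(3, q)`).
-/

set_option autoImplicit false

namespace Cfsg.Agent.Lib.PairTwo

open Matrix
open scoped commutatorElement

universe u v

variable {K : Type} [Field K]

/-- The group `G` is an extension of `K` by `K × K` whose squaring map is `A s² + B s t + D t²`. -/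
structure Form (G : Type u) [Group G] (K : Type) [Field K] (A B D : K) where
  /-- projection -/
  pi : G → K × K
  /-- coordinate on the kernel -/
  ka : G → K
  pi_mul : ∀ x y, pi (x * y) = pi x + pi y
  pi_surj : Function.Surjective pi
  ka_mul : ∀ x y, pi x = 0 → pi y = 0 → ka (x * y) = ka x + ka y
  ka_inj : ∀ x, pi x = 0 → ka x = 0 → x = 1
  ka_surj : ∀ c, ∃ x, pi x = 0 ∧ ka x = c
  central : ∀ x, pi x = 0 → ∀ y, y * x = x * y
  sq : ∀ x, ka (x * x) = A * (pi x).1 ^ 2 + B * (pi x).1 * (pi x).2 + D * (pi x).2 ^ 2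

namespace Form

variable {G : Type u} [Group G] {A B D : K} (P : Form G K A B D)

theorem pi_one : P.pi 1 = 0 := by
  have h := P.pi_mul 1 1
  rw [one_mul] at h
  exact left_eq_add.1 h

theorem ka_one : P.ka 1 = 0 := by
  have h := P.ka_mul 1 1 P.pi_one P.pi_one
  rw [one_mul] at h
  exact left_eq_add.1 h

theorem pi_inv (x : G) : P.pi x⁻¹ = - P.pi x := by
  have h := P.pi_mul x x⁻¹
  rw [mul_inv_cancel, P.pi_one] at h
  exact eq_neg_of_add_eq_zero_right h.symm

theorem ka_inv (x : G) (hx : P.pi x = 0) : P.ka x⁻¹ = - P.ka x := by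
  have h := P.ka_mul x x⁻¹ hx (by rw [P.pi_inv, hx, neg_zero])
  rw [mul_inv_cancel, P.ka_one] at h
  exact eq_neg_of_add_eq_zero_right h.symm

/-- Transport. -/
def comap {G' : Type v} [Group G'] (e : G' ≃* G) : Form G' K A B D where
  pi x := P.pi (e x)
  ka x := P.ka (e x)
  pi_mul x y := by rw [map_mul, P.pi_mul]
  pi_surj := P.pi_surj.comp e.surjective
  ka_mul x y hx hy := by rw [map_mul, P.ka_mul _ _ hx hy]
  ka_inj x hx hk := e.injective (by rw [P.ka_inj _ hx hk, map_one])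
  ka_surj c := by
    obtain ⟨x, h1, h2⟩ := P.ka_surj c
    exact ⟨e.symm x, by rw [e.apply_symm_apply, h1], by rw [e.apply_symm_apply, h2]⟩
  central x hx y := e.injective (by rw [map_mul, map_mul, P.central _ hx])
  sq x := by rw [map_mul, P.sq]

/-- Change of coordinates. -/
def change (L : K × K → K × K) (hL : ∀ p r, L (p + r) = L p + L r) (hb : Function.Bijective L) (s : K)
    (hs : s ≠ 0) {A' B' D' : K}
    (h : ∀ p : K × K, A' * (L p).1 ^ 2 + B' * (L p).1 * (L p).2 + D' * (L p).2 ^ 2 =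
      s * (A * p.1 ^ 2 + B * p.1 * p.2 + D * p.2 ^ 2)) : Form G K A' B' D' :=
  have h0 : L 0 = 0 := by
    have := hL 0 0
    rw [add_zero] at this
    exact left_eq_add.1 this
  have key : ∀ x, L (P.pi x) = 0 → P.pi x = 0 := fun x hx => hb.1 (hx.trans h0.symm)
  { pi := fun x => L (P.pi x)
    ka := fun x => s * P.ka x
    pi_mul := fun x y => by rw [P.pi_mul, hL]
    pi_surj := hb.2.comp P.pi_surj
    ka_mul := fun x y hx hy => by rw [P.ka_mul x y (key x hx) (key y hy), mul_add]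
    ka_inj := fun x hx hk => P.ka_inj x (key x hx) ((mul_eq_zero.1 hk).resolve_left hs)
    ka_surj := fun c => by
      obtain ⟨x, h1, h2⟩ := P.ka_surj (s⁻¹ * c)
      exact ⟨x, by rw [h1, h0], by rw [h2, mul_inv_cancel_left₀ hs]⟩
    central := fun x hx => P.central x (key x hx)
    sq := fun x => by rw [P.sq, h] }

variable [CharP K 2]

theorem pi_sq (x : G) : P.pi (x * x) = 0 := by
  rw [P.pi_mul]
  exact Prod.ext (CharTwo.add_self_eq_zero _) (CharTwo.add_self_eq_zero _)

include P in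
/-- Two groups with the same form are isomorphic. -/
theorem iso {H : Type v} [Group H] [Finite G] [Finite H] (Q : Form H K A B D) : Nonempty (G ≃* H) := by
  let R : Subgroup (G × H) :=
    { carrier := {r | P.pi r.1 = Q.pi r.2}
      one_mem' := by show P.pi 1 = Q.pi 1; rw [P.pi_one, Q.pi_one]
      mul_mem' := fun {a b} ha hb => by
        show P.pi (a.1 * b.1) = Q.pi (a.2 * b.2)
        rw [P.pi_mul, Q.pi_mul, show P.pi a.1 = Q.pi a.2 from ha, show P.pi b.1 = Q.pi b.2 from hb]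
      inv_mem' := fun {a} ha => by
        show P.pi a.1⁻¹ = Q.pi a.2⁻¹
        rw [P.pi_inv, Q.pi_inv, show P.pi a.1 = Q.pi a.2 from ha] }
  let S : Subgroup (G × H) :=
    { carrier := {r | P.pi r.1 = 0 ∧ Q.pi r.2 = 0 ∧ P.ka r.1 = Q.ka r.2}
      one_mem' := ⟨P.pi_one, Q.pi_one, P.ka_one.trans Q.ka_one.symm⟩
      mul_mem' := fun {a b} ha hb => by
        refine ⟨?_, ?_, ?_⟩
        · show P.pi (a.1 * b.1) = 0
          rw [P.pi_mul, ha.1, hb.1, add_zero]
        · show Q.pi (a.2 * b.2) = 0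
          rw [Q.pi_mul, ha.2.1, hb.2.1, add_zero]
        · show P.ka (a.1 * b.1) = Q.ka (a.2 * b.2)
          rw [P.ka_mul _ _ ha.1 hb.1, Q.ka_mul _ _ ha.2.1 hb.2.1, ha.2.2, hb.2.2]
      inv_mem' := fun {a} ha => by
        refine ⟨?_, ?_, ?_⟩
        · show P.pi a.1⁻¹ = 0
          rw [P.pi_inv, ha.1, neg_zero]
        · show Q.pi a.2⁻¹ = 0
          rw [Q.pi_inv, ha.2.1, neg_zero]
        · show P.ka a.1⁻¹ = Q.ka a.2⁻¹
          rw [P.ka_inv _ ha.1, Q.ka_inv _ ha.2.1, ha.2.2] }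
  have hsq : ∀ r ∈ R, r * r ∈ S := fun r hr => ⟨P.pi_sq r.1, Q.pi_sq r.2, by
    show P.ka (r.1 * r.1) = Q.ka (r.2 * r.2)
    rw [P.sq, Q.sq, show P.pi r.1 = Q.pi r.2 from hr]⟩
  have hSR : S ≤ R := fun r hr => hr.1.trans hr.2.1.symm
  have hne : {K0 : Subgroup (G × H) | S ≤ K0 ∧ K0 ≤ R ∧ ∀ r ∈ K0, r.2 = 1 → r = 1}.Nonempty :=
    ⟨S, le_rfl, hSR, fun r hr h => Prod.ext (P.ka_inj _ hr.1 (by rw [hr.2.2, h, Q.ka_one])) h⟩
  obtain ⟨K0, ⟨hSK, hKR, hK1⟩, hmax⟩ := (Set.toFinite _).exists_maximal hne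
  have hsqK : ∀ r ∈ R, r * r ∈ K0 := fun r hr => hSK (hsq r hr)
  have hnorm : ∀ r ∈ R, ∀ k ∈ K0, r * k * r⁻¹ ∈ K0 := by
    intro r hr k hk
    have h1 : r * k * r⁻¹ = (r * k) * (r * k) * (k⁻¹) * ((r * r)⁻¹) := by
      have h3 := hsq r hr
      have hc : ∀ y : G × H, y * (r * r)⁻¹ = (r * r)⁻¹ * y := fun y => by
        have hy : y * (r * r) = (r * r) * y := Prod.ext (P.central _ h3.1 _) (Q.central _ h3.2.1 _)
        calc y * (r * r)⁻¹ = (r * r)⁻¹ * ((r * r) * y) * (r * r)⁻¹ := by group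
          _ = (r * r)⁻¹ * (y * (r * r)) * (r * r)⁻¹ := by rw [hy]
          _ = (r * r)⁻¹ * y := by group
      calc r * k * r⁻¹ = (r * k) * (r * k) * k⁻¹ * r⁻¹ * r⁻¹ := by group
        _ = (r * k) * (r * k) * (k⁻¹ * (r * r)⁻¹) := by group
        _ = _ := by group
    rw [h1]
    exact K0.mul_mem (K0.mul_mem (hsqK _ (R.mul_mem hr (hKR hk))) (K0.inv_mem hk)) (K0.inv_mem (hsqK r hr))
  -- every element of `R` is a product of an element of `K0` and one of the form `(c, 1)`
  have hdec : ∀ r ∈ R, ∃ k ∈ K0, r.2 = k.2 := by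
    intro r hr
    by_contra! hcon
    let K1 : Subgroup (G × H) :=
      { carrier := {x | x ∈ K0 ∨ r⁻¹ * x ∈ K0}
        one_mem' := Or.inl K0.one_mem
        mul_mem' := fun {a b} ha hb => by
          rcases ha with ha | ha <;> rcases hb with hb | hb
          · exact Or.inl (K0.mul_mem ha hb)
          · refine Or.inr ?_
            have := K0.mul_mem (hnorm _ (R.inv_mem hr) a ha) hb
            rwa [inv_inv, show r⁻¹ * a * r * (r⁻¹ * b) = r⁻¹ * (a * b) by group] at this
          · refine Or.inr ?_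
            have := K0.mul_mem ha hb
            rwa [mul_assoc] at this
          · refine Or.inl ?_
            have := K0.mul_mem (K0.mul_mem (hnorm r hr _ ha) (hsqK r hr)) hb
            rwa [show r * (r⁻¹ * a) * r⁻¹ * (r * r) * (r⁻¹ * b) = a * b by group] at this
        inv_mem' := fun {a} ha => by
          rcases ha with ha | ha
          · exact Or.inl (K0.inv_mem ha)
          · refine Or.inr ?_
            have h1 := K0.mul_mem (K0.inv_mem (hsqK r hr)) (hnorm r hr _ (K0.inv_mem ha))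
            rwa [show (r * r)⁻¹ * (r * (r⁻¹ * a)⁻¹ * r⁻¹) = r⁻¹ * a⁻¹ by group] at h1 }
    have hlt : K0 ≤ K1 := fun x hx => Or.inl hx
    have hrK1 : r ∈ K1 := Or.inr (by rw [inv_mul_cancel]; exact K0.one_mem)
    have hrK0 : r ∈ K0 := by
      refine hmax ⟨hSK.trans hlt, ?_, ?_⟩ hlt hrK1
      · intro x hx
        rcases hx with hx | hx
        · exact hKR hx
        · have := R.mul_mem hr (hKR hx)
          rwa [mul_inv_cancel_left] at this
      · intro x hx hx2
        rcases hx with hx | hx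
        · exact hK1 x hx hx2
        · have h := hcon _ (K0.inv_mem hx)
          simp [hx2] at h
    exact hcon r hrK0 rfl
  have hex : ∀ y : H, ∃ x : G, (x, y) ∈ K0 := by
    intro y
    obtain ⟨x0, hx0⟩ := P.pi_surj (Q.pi y)
    obtain ⟨k, hk, hk2⟩ := hdec (x0, y) hx0
    exact ⟨k.1, by rw [show (k.1, y) = k from Prod.ext rfl hk2]; exact hk⟩
  choose f hf using hex
  have huniq : ∀ x x' y, (x, y) ∈ K0 → (x', y) ∈ K0 → x = x' := fun x x' y h h' => by
    have := hK1 _ (K0.mul_mem h (K0.inv_mem h')) (by simp)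
    simpa [mul_inv_eq_one] using congrArg Prod.fst this
  have hinj : Function.Injective f := by
    intro y y' h
    have h' := hf y'
    rw [← h] at h'
    have hm := K0.mul_mem (hf y) (K0.inv_mem h')
    have h1 : ((1 : G), y * y'⁻¹) ∈ K0 := by
      rwa [show ((f y, y) : G × H) * (f y, y')⁻¹ = (1, y * y'⁻¹) from Prod.ext (mul_inv_cancel _) rfl] at hm
    have hπ : Q.pi (y * y'⁻¹) = 0 := ((hKR h1 : P.pi 1 = Q.pi (y * y'⁻¹))).symm.trans P.pi_one
    obtain ⟨c, hc1, hc2⟩ := P.ka_surj (Q.ka (y * y'⁻¹))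
    have h2 : (c, y * y'⁻¹) ∈ K0 := hSK ⟨hc1, hπ, hc2⟩
    have hc : c = 1 := huniq _ _ _ h2 h1
    rw [hc, P.ka_one] at hc2
    exact mul_inv_eq_one.1 (Q.ka_inj _ hπ hc2.symm)
  have hsurj : Function.Surjective f := by
    intro x
    obtain ⟨y0, hy0⟩ := Q.pi_surj (P.pi x)
    have h := hKR (hf y0)
    change P.pi (f y0) = Q.pi y0 at h
    have hπ : P.pi ((f y0)⁻¹ * x) = 0 := by rw [P.pi_mul, P.pi_inv, h, hy0, neg_add_cancel]
    obtain ⟨d, hd1, hd2⟩ := Q.ka_surj (P.ka ((f y0)⁻¹ * x))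
    have h2 := K0.mul_mem (hf y0) (hSK (show ((f y0)⁻¹ * x, d) ∈ S from ⟨hπ, hd1, hd2.symm⟩))
    refine ⟨y0 * d, huniq _ _ _ (hf _) ?_⟩
    rwa [show ((f y0, y0) : G × H) * ((f y0)⁻¹ * x, d) = (x, y0 * d) from
      Prod.ext (mul_inv_cancel_left _ _) rfl] at h2
  let φ : H →* G := MonoidHom.mk' f fun y y' => huniq _ _ _ (hf _) (K0.mul_mem (hf y) (hf y'))
  exact ⟨(MulEquiv.ofBijective φ ⟨hinj, hsurj⟩).symm⟩

end Form

section psl

variable [Fintype K]

/-- upper unitriangular matrices -/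
def uniT (p : K × K × K) : Matrix.SpecialLinearGroup (Fin 3) K :=
  ⟨!![1, p.1, p.2.2; 0, 1, p.2.1; 0, 0, 1], by simp [Matrix.det_fin_three]⟩

omit [Fintype K] in
theorem uniT_mul (p q : K × K × K) :
    uniT p * uniT q = uniT (p.1 + q.1, p.2.1 + q.2.1, p.2.2 + q.2.2 + p.1 * q.2.1) := by
  apply Subtype.ext
  show (!![1, p.1, p.2.2; 0, 1, p.2.1; 0, 0, 1] : Matrix (Fin 3) (Fin 3) K) *
    !![1, q.1, q.2.2; 0, 1, q.2.1; 0, 0, 1] = !![1, p.1 + q.1, p.2.2 + q.2.2 + p.1 * q.2.1; 0, 1, p.2.1 + q.2.1; 0, 0, 1]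
  ext i j
  fin_cases i <;> fin_cases j <;> simp [Matrix.mul_apply, Fin.sum_univ_three] <;> ring

/-- unitriangular matrices in `PSL` -/
def uniP (p : K × K × K) : Matrix.ProjectiveSpecialLinearGroup (Fin 3) K :=
  QuotientGroup.mk' _ (uniT p)

omit [Fintype K] in
theorem uniP_mul (p q : K × K × K) :
    uniP p * uniP q = uniP (p.1 + q.1, p.2.1 + q.2.1, p.2.2 + q.2.2 + p.1 * q.2.1) := by
  rw [uniP, uniP, ← map_mul, uniT_mul, uniP]

omit [Fintype K] in
theorem uniP_zero : uniP ((0, 0, 0) : K × K × K) = 1 := by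
  rw [uniP, show uniT ((0, 0, 0) : K × K × K) = 1 from Subtype.ext (by
    show (!![1, 0, 0; 0, 1, 0; 0, 0, 1] : Matrix (Fin 3) (Fin 3) K) = 1
    ext i j; fin_cases i <;> fin_cases j <;> simp), map_one]

omit [Fintype K] in
theorem uniP_inj {p q : K × K × K} (e : uniP p = uniP q) : p = q := by
  rw [uniP, uniP, QuotientGroup.mk'_eq_mk'] at e
  obtain ⟨z, hz, hgz⟩ := e
  obtain ⟨r, -, hrz⟩ := Matrix.SpecialLinearGroup.mem_center_iff.1 hz
  have hr : (uniT q).1 = (uniT p).1 * Matrix.scalar (Fin 3) r := by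
    rw [← hgz]
    show (uniT p).1 * z.1 = _
    rw [← hrz]
  have h1 : r = 1 := by
    have := congrFun (congrFun hr 0) 0
    simpa [uniT, Matrix.scalar_apply, Matrix.mul_diagonal] using this.symm
  subst h1
  rw [map_one, mul_one] at hr
  refine Prod.ext ?_ (Prod.ext ?_ ?_)
  · simpa [uniT] using (congrFun (congrFun hr 0) 1).symm
  · simpa [uniT] using (congrFun (congrFun hr 1) 2).symm
  · simpa [uniT] using (congrFun (congrFun hr 0) 2).symm

theorem psl_model [CharP K 2] {n : ℕ} (hn : 1 ≤ n) (hK : Fintype.card K = 2 ^ n) :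
    ∃ S : Sylow 2 (Matrix.ProjectiveSpecialLinearGroup (Fin 3) K),
      Nonempty (Form ↥(S : Subgroup (Matrix.ProjectiveSpecialLinearGroup (Fin 3) K)) K 0 1 0) := by
  haveI : Fact (Nat.Prime 2) := ⟨Nat.prime_two⟩
  let U : Subgroup (Matrix.ProjectiveSpecialLinearGroup (Fin 3) K) :=
    { carrier := Set.range uniP
      one_mem' := ⟨_, uniP_zero⟩
      mul_mem' := by rintro _ _ ⟨p, rfl⟩ ⟨q, rfl⟩; exact ⟨_, (uniP_mul p q).symm⟩
      inv_mem' := by
        rintro _ ⟨p, rfl⟩
        refine ⟨(p.1, p.2.1, p.2.2 + p.1 * p.2.1), (inv_eq_of_mul_eq_one_right ?_).symm⟩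
        rw [uniP_mul, ← uniP_zero]
        refine congrArg uniP (Prod.ext (CharTwo.add_self_eq_zero _) (Prod.ext (CharTwo.add_self_eq_zero _) ?_))
        linear_combination CharTwo.add_self_eq_zero p.2.2 + CharTwo.add_self_eq_zero (p.1 * p.2.1) }
  have hcU : Nat.card U = (2 ^ n) ^ 3 := by
    have h : Nat.card (Set.range (uniP : K × K × K → _)) = Nat.card (K × K × K) :=
      Nat.card_range_of_injective fun p q h => uniP_inj h
    rw [Nat.card_prod, Nat.card_prod, show Nat.card K = 2 ^ n by rw [Nat.card_eq_fintype_card, hK]] at h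
    exact h.trans (by ring)
  have hU2 : IsPGroup 2 U := IsPGroup.of_card (n := n * 3) (by rw [hcU, pow_mul])
  obtain ⟨S, hS⟩ := hU2.exists_le_sylow
  have hSU : U = (S : Subgroup (Matrix.ProjectiveSpecialLinearGroup (Fin 3) K)) := by
    refine Subgroup.eq_of_le_of_card_ge hS ?_
    have hd : Nat.card S ∣ (2 ^ n) ^ 3 * (((2 ^ n) ^ 3 - 1) * ((2 ^ n) ^ 2 - 1)) := by
      refine (Subgroup.card_subgroup_dvd_card _).trans ?_
      refine (Subgroup.card_quotient_dvd_card _).trans (dvd_of_eq ?_)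
      have h := Lib.Classical.card_SL_mul (F := K) hK 3 (by norm_num)
      rw [Fin.prod_univ_three] at h
      simp only [Fin.val_zero, Fin.val_one, pow_zero, pow_one, Fin.val_two] at h
      have h2 : 2 ≤ 2 ^ n := Nat.le_self_pow (by omega) 2
      generalize 2 ^ n = q at h h2 ⊢
      refine Nat.eq_of_mul_eq_mul_left (show 0 < q - 1 by omega) (h.trans ?_)
      have e1 : q ^ 3 - q = q * (q ^ 2 - 1) := by rw [Nat.mul_sub_one]; ring_nf
      have e2 : q ^ 3 - q ^ 2 = q ^ 2 * (q - 1) := by rw [Nat.mul_sub_one]; ring_nf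
      rw [e1, e2]; ring
    obtain ⟨k, hk⟩ := S.2.exists_card_eq
    rw [hk] at hd
    have hev : Even (2 ^ n) := (Nat.even_pow' (by omega)).2 even_two
    have ho : ∀ j : ℕ, j ≠ 0 → Odd ((2 ^ n) ^ j - 1) := fun j hj =>
      Nat.Even.sub_odd (Nat.one_le_pow _ _ (by positivity)) (hev.pow_of_ne_zero hj) odd_one
    have hcop : Nat.Coprime (2 ^ k) (((2 ^ n) ^ 3 - 1) * ((2 ^ n) ^ 2 - 1)) :=
      (Nat.coprime_two_left.2 ((ho 3 (by norm_num)).mul (ho 2 (by norm_num)))).pow_left k
    rw [hcU, hk]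
    exact Nat.le_of_dvd (by positivity) (hcop.dvd_of_dvd_mul_right hd)
  refine ⟨S, ⟨Form.comap ?_ (MulEquiv.subgroupCongr hSU.symm)⟩⟩
  have hmem : ∀ u : U, ∃ p, uniP p = (u : Matrix.ProjectiveSpecialLinearGroup (Fin 3) K) := fun u => u.2
  choose c hc using hmem
  have hcmul : ∀ x y : U, c (x * y) =
      ((c x).1 + (c y).1, (c x).2.1 + (c y).2.1, (c x).2.2 + (c y).2.2 + (c x).1 * (c y).2.1) := by
    intro x y
    apply uniP_inj
    rw [hc, ← uniP_mul, hc, hc]
    rfl
  exact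
    { pi := fun u => ((c u).1, (c u).2.1)
      ka := fun u => (c u).2.2
      pi_mul := fun x y => by rw [hcmul]; rfl
      pi_surj := fun r => ⟨⟨uniP (r.1, r.2, 0), ⟨_, rfl⟩⟩, by simp only; rw [uniP_inj (hc ⟨uniP (r.1, r.2, 0), ⟨_, rfl⟩⟩)]⟩
      ka_mul := fun x y hx hy => by
        simp only [Prod.ext_iff, Prod.fst_zero, Prod.snd_zero] at hx hy
        simp [hcmul, hx.1]
      ka_inj := fun x hx hk => by
        simp only [Prod.ext_iff, Prod.fst_zero, Prod.snd_zero] at hx
        have h : c x = (0, 0, 0) := by ext <;> simp [hx.1, hx.2, hk]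
        exact Subtype.ext (by rw [← hc, h, uniP_zero]; rfl)
      ka_surj := fun r => ⟨⟨uniP (0, 0, r), ⟨_, rfl⟩⟩, by rw [uniP_inj (hc ⟨uniP (0, 0, r), ⟨_, rfl⟩⟩)]; rfl,
        by rw [uniP_inj (hc ⟨uniP (0, 0, r), ⟨_, rfl⟩⟩)]⟩
      central := fun x hx y => by
        simp only [Prod.ext_iff, Prod.fst_zero, Prod.snd_zero] at hx
        refine Subtype.ext ?_
        show (y : Matrix.ProjectiveSpecialLinearGroup (Fin 3) K) * x = x * y
        rw [← hc x, ← hc y, uniP_mul, uniP_mul]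
        simp [hx.1, hx.2, add_comm]
      sq := fun x => by
        simp [hcmul, CharTwo.add_self_eq_zero] }

end psl

section psu

variable [Fintype K] [CharP K 2]

/-- An anisotropic form `s² + b s t + d t²` is the norm form of the Sylow subgroup of `PSU(3, q)`. -/
theorem psu_model {n : ℕ} (hn : 1 ≤ n) (hK : Fintype.card K = 2 ^ n) (b d : K)
    (hroot : ∀ r : K, r ^ 2 + b * r + d ≠ 0) :
    ∃ (L : Type) (_ : Field L) (_ : Fintype L), Fintype.card L = 4 ^ n ∧
      ∃ S : Sylow 2 (Cfsg.PSU 3 L (2 ^ n)), Finite ↥(S : Subgroup (Cfsg.PSU 3 L (2 ^ n))) ∧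
        Nonempty (Form ↥(S : Subgroup (Cfsg.PSU 3 L (2 ^ n))) K 1 b d) := by
  classical
  let P : Polynomial K := Polynomial.X ^ 2 + (Polynomial.C b * Polynomial.X + Polynomial.C d)
  have hdeg : P.natDegree = 2 := by
    show (Polynomial.X ^ 2 + (Polynomial.C b * Polynomial.X + Polynomial.C d)).natDegree = 2
    rw [Polynomial.natDegree_add_eq_left_of_natDegree_lt] <;> rw [Polynomial.natDegree_X_pow]
    exact Nat.lt_of_le_of_lt Polynomial.natDegree_linear_le (by norm_num)
  have hnr : ∀ x : K, ¬ P.IsRoot x := fun x hx => hroot x (by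
    simpa [P, Polynomial.IsRoot, add_assoc] using hx)
  haveI : Fact (Irreducible P) :=
    ⟨Polynomial.irreducible_of_degree_le_three_of_not_isRoot (by rw [hdeg]; simp) hnr⟩
  let L := AdjoinRoot P
  have hP0 : P ≠ 0 := fun h => by rw [h, Polynomial.natDegree_zero] at hdeg; omega
  let pb := AdjoinRoot.powerBasis hP0
  haveI : FiniteDimensional K L := Module.Finite.of_basis pb.basis
  haveI : Finite L := Module.finite_of_finite K
  letI : Fintype L := Fintype.ofFinite L
  have hL : Fintype.card L = (2 ^ n) ^ 2 := by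
    rw [← hK, ← Nat.card_eq_fintype_card, Module.natCard_eq_pow_finrank (K := K), pb.finrank,
      AdjoinRoot.powerBasis_dim, hdeg, Nat.card_eq_fintype_card]
  haveI := U3Sylow.charTwo (n := n) hL
  set q := 2 ^ n with hq
  set ι := AdjoinRoot.of P with hι
  set θ := AdjoinRoot.root P with hθ
  have hθeq : θ ^ 2 + (ι b * θ + ι d) = 0 := by
    have h := AdjoinRoot.eval₂_root P
    simpa [P] using h
  have hιq : ∀ x, ι x ^ q = ι x := fun x => by
    rw [← map_pow, ← hK, FiniteField.pow_card]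
  let Φ : K × K → L := fun p => ι p.1 + θ * ι p.2
  have hΦadd : ∀ p r, Φ (p + r) = Φ p + Φ r := fun p r => by
    simp only [Φ, Prod.fst_add, Prod.snd_add, map_add]; ring
  have hΦ0 : ∀ p, Φ p = 0 → p = 0 := by
    rintro ⟨x, y⟩ h
    have hy : y = 0 := by
      by_contra hy
      refine hroot (-x / y) (ι.injective ?_)
      have hy' : ι y ≠ 0 := fun h => hy (ι.injective (h.trans (map_zero ι).symm))
      have ht : θ = ι (-x / y) := by
        rw [map_div₀, map_neg, eq_div_iff hy']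
        simp only [Φ] at h
        linear_combination h
      rw [map_zero, map_add, map_add, map_mul, map_pow, ← ht]
      linear_combination hθeq
    subst hy
    have hx : ι x = 0 := by simpa [Φ] using h
    exact Prod.ext (ι.injective (hx.trans (map_zero ι).symm)) rfl
  have hΦb : Function.Bijective Φ := by
    refine (Fintype.bijective_iff_injective_and_card Φ).2 ⟨fun p r h => ?_, by
      rw [Fintype.card_prod, hK, hL, pow_two]⟩
    refine sub_eq_zero.1 (hΦ0 _ ?_)
    have h' := hΦadd (p - r) r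
    rw [sub_add_cancel, h] at h'
    linear_combination -h'
  have hθq : θ ^ q = θ + ι b := by
    have h1 : (θ ^ q) ^ 2 + (ι b * θ ^ q + ι d) = 0 := by
      have h2 := congrArg (fun z : L => z ^ q) hθeq
      simp only [hq, add_pow_char_pow, mul_pow, zero_pow (show q ≠ 0 by rw [hq]; positivity)] at h2
      rw [← hq] at h2
      rw [zero_pow (show q ≠ 0 by rw [hq]; positivity), hιq, hιq, ← pow_mul, mul_comm 2 q, pow_mul] at h2
      exact h2
    have h2 : (θ ^ q - θ) * (θ ^ q + θ + ι b) = 0 := by linear_combination h1 - hθeq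
    rcases mul_eq_zero.1 h2 with h3 | h3
    · exfalso
      obtain ⟨x, hx⟩ := Cfsg.Agent.Lib.UnitaryConj.exists_moved hL
      obtain ⟨⟨s, t⟩, rfl⟩ := hΦb.2 x
      apply hx
      show (ι s + θ * ι t) ^ q = ι s + θ * ι t
      simp only [hq, add_pow_char_pow, mul_pow]
      rw [← hq, hιq, hιq, sub_eq_zero.1 h3]
    · linear_combination h3 - CharTwo.add_self_eq_zero (θ + ι b)
  have hnorm : ∀ s t : K, U3Sylow.N q (Φ (s, t)) = ι (1 * s ^ 2 + b * s * t + d * t ^ 2) := by
    intro s t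
    show Φ (s, t) * Φ (s, t) ^ q = _
    simp only [Φ]
    simp only [hq, add_pow_char_pow, mul_pow]
    rw [← hq, hιq, hιq, hθq]
    simp only [map_add, map_mul, map_pow, map_one]
    linear_combination (ι t) ^ 2 * hθeq + (ι s * ι t * θ - ι t ^ 2 * ι d) * CharTwo.two_eq_zero (R := L)
  have hfix : ∀ c : L, c ^ q = c → ∃ r, ι r = c := by
    intro c hc
    obtain ⟨⟨s, t⟩, rfl⟩ := hΦb.2 c
    refine ⟨s, ?_⟩
    simp only [Φ] at hc ⊢
    simp only [hq, add_pow_char_pow, mul_pow] at hc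
    rw [← hq, hιq, hιq, hθq] at hc
    have hbt : ι (b * t) = 0 := by rw [map_mul]; linear_combination hc
    have hb : b ≠ 0 := by
      rintro rfl
      obtain ⟨x, hx⟩ := Cfsg.Agent.Lib.UnitaryConj.exists_moved hL
      obtain ⟨⟨s, t⟩, rfl⟩ := hΦb.2 x
      apply hx
      show (ι s + θ * ι t) ^ q = ι s + θ * ι t
      simp only [hq, add_pow_char_pow, mul_pow]
      rw [← hq, hιq, hιq, hθq, map_zero, add_zero]
    have ht : t = 0 := (mul_eq_zero.1 (ι.injective (hbt.trans (map_zero ι).symm))).resolve_left hb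
    simp [ht]
  obtain ⟨S0⟩ : Nonempty (Sylow 2 (Cfsg.PSU 3 L q)) := inferInstance
  have hev : Even q := (Nat.even_pow' (by omega)).2 even_two
  obtain ⟨H⟩ := U3Sylow.exists_shape_sylow hL hev S0
  haveI := H.finite hL
  refine ⟨L, inferInstance, inferInstance, by rw [hL, ← pow_mul, mul_comm, pow_mul]; norm_num, S0,
    inferInstance, ⟨?_⟩⟩
  let e := (Equiv.ofBijective Φ hΦb).symm
  have he : ∀ x, Φ (e x) = x := fun x => (Equiv.ofBijective Φ hΦb).apply_symm_apply x
  have he0 : ∀ {x}, e x = 0 → x = 0 := fun {x} h => by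
    rw [← he x, h]; simp [Φ]
  have hk : ∀ g, H.fs g = 0 → ∃ r, ι r = H.sn g := fun g hg => hfix _ (H.sn_mem_of_fs hL hg)
  exact
    { pi := fun g => e (H.fs g)
      ka := fun g => Function.invFun ι (H.sn g)
      pi_mul := fun x y => hΦb.1 (by rw [hΦadd, he, he, he, H.fs_mul])
      pi_surj := fun p => by
        obtain ⟨g, hg⟩ := H.fs_surj hL (Φ p)
        exact ⟨g, by simp only; rw [hg]; exact (Equiv.ofBijective Φ hΦb).symm_apply_apply p⟩
      ka_mul := fun x y hx hy => by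
        obtain ⟨a, ha⟩ := hk x (he0 hx)
        obtain ⟨c, hc⟩ := hk y (he0 hy)
        rw [H.sn_mul, he0 hy, zero_mul, add_zero, ← ha, ← hc, ← map_add]
        simp only [Function.leftInverse_invFun ι.injective _]
      ka_inj := fun x hx hk' => by
        obtain ⟨a, ha⟩ := hk x (he0 hx)
        rw [← ha, Function.leftInverse_invFun ι.injective] at hk'
        refine H.ext ((he0 hx).trans H.fs_one.symm) ?_
        rw [H.sn_one hL, ← ha, hk', map_zero]
      ka_surj := fun c => by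
        obtain ⟨g, hg1, hg2⟩ := H.exists_mk (a := 0) (c := ι c) (show ι c + ι c ^ q = U3Sylow.N q 0 by
          rw [hιq, CharTwo.add_self_eq_zero, U3Sylow.N, zero_mul])
        exact ⟨g, hΦb.1 (by rw [he, hg1]; simp [Φ]), by rw [hg2]; exact Function.leftInverse_invFun ι.injective c⟩
      central := fun x hx => Subgroup.mem_center_iff.1 ((H.mem_center hL).2 (he0 hx))
      sq := fun x => by
        rw [H.sn_sq hL, ← he (H.fs x), hnorm, Function.leftInverse_invFun ι.injective, he] }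

end psu

end Cfsg.Agent.Lib.PairTwo
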