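import Cfsg.Agent.Lib.PairTwo.Structure
import Mathlib

/-!
The class is two: induction on the order and the Jacobi identity.
-/

set_option autoImplicit false

namespace Cfsg.Agent.Lib.PairTwo

open scoped commutatorElement

universe u

variable {F : Type} [Field F] [Fintype F] [CharP F 2]

/-- Hall–Witt for three elements with commutators in an abelian subgroup `D` and `⁅D, Q⁆` central of
exponent two. -/
theorem jacobi {Q : Type u} [Group Q] {D : Subgroup Q} (hcD : ∀ x y : Q, ⁅x, y⁆ ∈ D)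
    (hDD : ∀ d ∈ D, ∀ d' ∈ D, d * d' = d' * d) (hDc : ∀ d ∈ D, ∀ y : Q, ⁅d, y⁆ ∈ Subgroup.center Q)
    (h2 : ∀ d ∈ D, ∀ y : Q, ⁅d, y⁆ * ⁅d, y⁆ = 1) (a b c : Q) :
    ⁅⁅a, b⁆, c⁆ * ⁅⁅b, c⁆, a⁆ * ⁅⁅c, a⁆, b⁆ = 1 := by
  have hcz : ∀ {z : Q}, z ∈ Subgroup.center Q → ∀ y, y * z = z * y := fun hz => Subgroup.mem_center_iff.1 hz
  have hinv : ∀ d ∈ D, ∀ y : Q, ⁅y, d⁆ = ⁅d, y⁆ := fun d hd y => by
    rw [← commutatorElement_inv]; exact inv_eq_of_mul_eq_one_right (h2 d hd y)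
  have hcr : ∀ d ∈ D, ∀ y : Q, ⁅y, d⁆ ∈ Subgroup.center Q := fun d hd y => hinv d hd y ▸ hDc d hd y
  set d := ⁅a, b⁆ with hd
  set d' := ⁅a, c⁆ with hd'
  set f := ⁅b, c⁆ with hf
  have hdD : d ∈ D := hcD a b
  have hd'D : d' ∈ D := hcD a c
  have hfD : f ∈ D := hcD b c
  have hdd : ⁅d, d'⁆ = 1 := commutatorElement_eq_one_iff_mul_comm.2 (hDD d hdD d' hd'D)
  have key : ⁅a, f⁆ * f = ⁅d, c⁆ * (⁅b, d'⁆ * f) := by
    calc ⁅a, f⁆ * f = ⁅a * b * a⁻¹, a * c * a⁻¹⁆ := by simp only [hf, commutatorElement_def]; group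
      _ = ⁅d * b, d' * c⁆ := by
        rw [show a * b * a⁻¹ = d * b by simp only [hd, commutatorElement_def]; group,
          show a * c * a⁻¹ = d' * c by simp only [hd', commutatorElement_def]; group]
      _ = d * (⁅b, d'⁆ * (d' * f * d'⁻¹)) * d⁻¹ * (⁅d, d'⁆ * (d' * ⁅d, c⁆ * d'⁻¹)) := by
        simp only [hf, commutatorElement_def]; group
      _ = _ := by
        rw [hdd, one_mul, hDD d' hd'D f hfD, mul_inv_cancel_right, hcz (hDc d hdD c) d', mul_inv_cancel_right,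
          show d * (⁅b, d'⁆ * f) * d⁻¹ = ⁅b, d'⁆ * f from by
            rw [← mul_assoc d, hcz (hcr d' hd'D b) d, mul_assoc ⁅b, d'⁆ d f, hDD d hdD f hfD, ← mul_assoc,
              mul_inv_cancel_right],
          hcz (hDc d hdD c)]
  have h1 : ⁅a, f⁆ = ⁅d, c⁆ * ⁅b, d'⁆ := mul_right_cancel (key.trans (mul_assoc _ _ _).symm)
  have h3 : ⁅⁅c, a⁆, b⁆ = ⁅d', b⁆ := by
    have hd'' : ⁅c, a⁆ = d'⁻¹ := (commutatorElement_inv a c).symm
    have h0 : ⁅d'⁻¹, b⁆ * ⁅d', b⁆ = 1 := by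
      rw [← comm_mul_left (hDc d' hd'D b), inv_mul_cancel, commutatorElement_one_left]
    rw [hd'', eq_inv_of_mul_eq_one_left h0]
    exact inv_eq_of_mul_eq_one_right (h2 d' hd'D b)
  rw [h3, ← hinv f hfD a, ← hinv d' hd'D b, h1, mul_assoc, mul_assoc ⁅d, c⁆, hinv d' hd'D b,
    h2 d' hd'D b, mul_one, h2 d hdD c]

theorem Lin.map_mk {Q : Type u} [Group Q] {g : F} {e : MulAut Q} {M C : Subgroup Q} [C.Normal]
    {eb : MulAut (Q ⧸ C)} (heb : ∀ x : Q, eb x = ((e x : Q) : Q ⧸ C)) (hL : Lin g e M C) :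
    Lin g eb (M.map (QuotientGroup.mk' C)) ⊥ := by
  have hp : ∀ (k : ℕ) (x : Q), (eb ^ k) (x : Q ⧸ C) = (((e ^ k) x : Q) : Q ⧸ C) := by
    intro k
    induction k with
    | zero => intro x; simp
    | succ k ih => intro x; rw [pow_succ, MulAut.mul_apply, heb, ih, pow_succ, MulAut.mul_apply]
  refine ⟨?_, ?_, ?_, ?_, ?_⟩
  · rintro _ ⟨x, hx, rfl⟩; exact ⟨e x, hL.mem x hx, (heb x).symm⟩
  · intro x hx; rw [Subgroup.mem_bot] at hx ⊢; rw [hx, map_one]
  · rintro _ ⟨x, hx, rfl⟩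
    exact Subgroup.mem_bot.2 ((QuotientGroup.eq_one_iff (x * x)).2 (hL.sq x hx))
  · rintro k l h _ ⟨x, hx, rfl⟩
    rw [QuotientGroup.mk'_apply, hp, hp, ← QuotientGroup.mk_inv, ← QuotientGroup.mk_mul, Subgroup.mem_bot,
      QuotientGroup.eq_one_iff]
    exact hL.eqv k l h x hx
  · rintro k l m h _ ⟨x, hx, rfl⟩
    rw [QuotientGroup.mk'_apply, hp, hp, hp, ← QuotientGroup.mk_mul, ← QuotientGroup.mk_inv,
      ← QuotientGroup.mk_mul, Subgroup.mem_bot, QuotientGroup.eq_one_iff]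
    exact hL.tri k l m h x hx

namespace Setup

variable {g : F} {n : ℕ}

theorem structure_aux (hg : Gen g n) (m : ℕ) : ∀ (Q : Type u) [Group Q] [Finite Q], Nat.card Q = m →
    ∀ (α e : MulAut Q) (C : Subgroup Q), Setup g n α e C → (¬ ∀ a b : Q, a * b = b * a) →
    Subgroup.center Q = C ∧ Nat.card Q = (2 ^ n) ^ 3 ∧ (∀ x y : Q, ⁅x, y⁆ ∈ C) ∧ (∀ x : Q, x * x ∈ C) ∧
      Lin g e ⊤ C := by
  induction m using Nat.strong_induction_on with
  | _ m ih =>
  intro Q _ _ hm α e C S hne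
  have hCZ := S.le_center hg
  haveI hCn : C.Normal := ⟨fun c hc y => by
    rw [Subgroup.mem_center_iff.1 (hCZ hc) y, mul_inv_cancel_right]; exact hc⟩
  have hcz : ∀ {z : Q}, z ∈ C → ∀ y, y * z = z * y := fun hz => Subgroup.mem_center_iff.1 (hCZ hz)
  have hCsq : ∀ c ∈ C, c * c = 1 := fun c hc => Subgroup.mem_bot.1 (S.lin.sq c hc)
  suffices hab : ∀ x y : Q, ⁅x, y⁆ ∈ C by
    exact S.classTwo hg hne (fun x y => hCZ (hab x y)) fun x y => hCsq _ (hab x y)
  by_contra hcon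
  have hαC : C.map α.toMonoidHom = C := Subgroup.eq_of_le_of_card_ge (by
    rintro _ ⟨c, hc, rfl⟩
    show α c ∈ C
    rwa [(S.fixed c).1 hc]) (by rw [Subgroup.card_map_of_injective α.injective])
  have heC : C.map e.toMonoidHom = C := Subgroup.eq_of_le_of_card_ge (by
    rintro _ ⟨c, hc, rfl⟩; exact S.lin.mem c hc) (by rw [Subgroup.card_map_of_injective e.injective])
  let αb : MulAut (Q ⧸ C) := QuotientGroup.congr C C α hαC
  let eb : MulAut (Q ⧸ C) := QuotientGroup.congr C C e heC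
  have hαb : ∀ x : Q, αb x = ((α x : Q) : Q ⧸ C) := fun x => rfl
  have heb : ∀ x : Q, eb x = ((e x : Q) : Q ⧸ C) := fun x => rfl
  -- the preimage of the fixed points
  let D : Subgroup Q :=
    { carrier := {x | x⁻¹ * α x ∈ C}
      one_mem' := by show (1 : Q)⁻¹ * α 1 ∈ C; rw [map_one, inv_one, one_mul]; exact one_mem C
      mul_mem' := fun {a b} ha hb => by
        show (a * b)⁻¹ * α (a * b) ∈ C
        have : (a * b)⁻¹ * α (a * b) = b⁻¹ * (a⁻¹ * α a) * b * (b⁻¹ * α b) := by rw [map_mul]; group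
        rw [this, hcz ha b⁻¹, inv_mul_cancel_right]
        exact C.mul_mem ha hb
      inv_mem' := fun {a} ha => by
        show a⁻¹⁻¹ * α a⁻¹ ∈ C
        have : a⁻¹⁻¹ * α a⁻¹ = a * (a⁻¹ * α a)⁻¹ * a⁻¹ := by rw [map_inv]; group
        rw [this, hcz (C.inv_mem ha) a, mul_inv_cancel_right]
        exact C.inv_mem ha }
  have hDmem : ∀ x, x ∈ D ↔ x⁻¹ * α x ∈ C := fun _ => Iff.rfl
  have heD : ∀ x ∈ D, e x ∈ D := fun x hx => by rw [hDmem, S.diff_e]; exact S.lin.mem _ hx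
  let δ : D →* Q := MonoidHom.mk' (fun x => (x : Q)⁻¹ * α x) fun a b => by
    rw [Subgroup.coe_mul, show ((a : Q) * b)⁻¹ * α (a * b) = (b : Q)⁻¹ * ((a : Q)⁻¹ * α a) * b * ((b : Q)⁻¹ * α b) by
      rw [map_mul]; group, hcz a.2 (b : Q)⁻¹, inv_mul_cancel_right]
  have hCD : C ≤ D := fun c hc => by
    rw [hDmem, (S.fixed c).1 hc, inv_mul_cancel]; exact one_mem C
  have hδker : ∀ x : D, δ x = 1 ↔ (x : Q) ∈ C := fun x => by
    show (x : Q)⁻¹ * α x = 1 ↔ _
    rw [inv_mul_eq_one, S.fixed, eq_comm]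
  have hCtop : C ≠ ⊤ := fun h => hne fun a b => hcz (z := b) (by rw [h]; trivial) a
  have hδC : δ.range = C := by
    refine le_antisymm (by rintro _ ⟨x, rfl⟩; exact x.2) ?_
    refine S.irred hg _ ?_ ?_ ?_
    · intro hb
      obtain ⟨x, hxC, hx⟩ := S.exists_fixed_mod C hCtop fun c hc => by rwa [(S.fixed c).1 hc]
      have : δ ⟨x, hx⟩ ∈ (⊥ : Subgroup Q) := hb ▸ ⟨_, rfl⟩
      exact hxC ((hδker _).1 (Subgroup.mem_bot.1 this))
    · rintro _ ⟨x, rfl⟩
      exact ⟨x, ((S.fixed _).1 x.2).symm⟩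
    · rintro _ ⟨x, rfl⟩
      exact ⟨⟨e x, heD x x.2⟩, S.diff_e (x : Q)⟩
  have hδpow : ∀ (k : ℕ) (x : D), δ ⟨(e ^ k) x, pow_mem_of heD k x x.2⟩ = (e ^ k) (δ x) := by
    intro k x
    show ((e ^ k) (x : Q))⁻¹ * α ((e ^ k) x) = (e ^ k) ((x : Q)⁻¹ * α x)
    rw [S.comm_pow, map_mul, map_inv]
  have hLinD : Lin g e D C := by
    refine ⟨heD, S.lin.mem, ?_, ?_, ?_⟩
    · intro x hx
      have h : δ (⟨x, hx⟩ * ⟨x, hx⟩) = 1 := by rw [map_mul]; exact hCsq _ hx
      exact (hδker _).1 h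
    · intro k l h x hx
      exact (hδker (⟨(e ^ k) x, pow_mem_of heD k x hx⟩⁻¹ * ⟨(e ^ l) x, pow_mem_of heD l x hx⟩)).1 (by
        rw [map_mul, map_inv, hδpow k ⟨x, hx⟩, hδpow l ⟨x, hx⟩]
        exact Subgroup.mem_bot.1 (S.lin.eqv k l h _ hx))
    · intro k l m h x hx
      exact (hδker ((⟨(e ^ k) x, pow_mem_of heD k x hx⟩ * ⟨(e ^ l) x, pow_mem_of heD l x hx⟩)⁻¹ *
        ⟨(e ^ m) x, pow_mem_of heD m x hx⟩)).1 (by
        rw [map_mul, map_inv, map_mul, hδpow k ⟨x, hx⟩, hδpow l ⟨x, hx⟩, hδpow m ⟨x, hx⟩]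
        exact Subgroup.mem_bot.1 (S.lin.tri k l m h _ hx))
  have hcardD : Nat.card ↥(D.map (QuotientGroup.mk' C)) = 2 ^ n := by
    let φ : D →* Q ⧸ C := (QuotientGroup.mk' C).comp D.subtype
    have hr : φ.range = D.map (QuotientGroup.mk' C) := by
      rw [MonoidHom.range_comp, Subgroup.range_subtype]
    have hk : φ.ker = δ.ker := by
      ext x
      rw [MonoidHom.mem_ker, MonoidHom.mem_ker, hδker]
      exact QuotientGroup.eq_one_iff (x : Q)
    have h1 := φ.ker.card_mul_index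
    rw [Subgroup.index_ker, hr, hk, ← δ.ker.card_mul_index, Subgroup.index_ker, hδC, S.card] at h1
    exact Nat.eq_of_mul_eq_mul_left Nat.card_pos h1
  have hpow : ∀ k : ℕ, ∀ x : Q, (eb ^ k) (x : Q ⧸ C) = (((e ^ k) x : Q) : Q ⧸ C) := by
    intro k
    induction k with
    | zero => intro x; simp
    | succ k ih => intro x; rw [pow_succ, MulAut.mul_apply, heb, ih, pow_succ, MulAut.mul_apply]
  have Sb : Setup g n αb eb (D.map (QuotientGroup.mk' C)) :=
    { fixed := fun y => QuotientGroup.induction_on y fun x => by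
        constructor
        · rintro ⟨d, hd, hdx⟩
          rw [← hdx]
          exact (QuotientGroup.eq.2 hd).symm
        · intro h
          exact ⟨x, QuotientGroup.eq.1 h.symm, rfl⟩
      invol := fun y => QuotientGroup.induction_on y fun x => by rw [hαb, hαb, S.invol]
      comm := fun y => QuotientGroup.induction_on y fun x => by rw [heb, hαb, hαb, heb, S.comm]
      period := MulEquiv.ext fun y => QuotientGroup.induction_on y fun x => by
        rw [hpow, S.period]; rfl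
      pgroup := S.pgroup.to_quotient C
      card := hcardD
      lin := hLinD.map_mk heb }
  have hneb : ¬ ∀ a b : Q ⧸ C, a * b = b * a := fun h => hcon fun x y =>
    (QuotientGroup.eq_one_iff ⁅x, y⁆).1 (commutatorElement_eq_one_iff_mul_comm.2 (h x y) :)
  have hC1 : 1 < Nat.card C := by rw [S.card]; have := hg.four_le; omega
  have hlt : Nat.card (Q ⧸ C) < m := by
    rw [← hm, Subgroup.card_eq_card_quotient_mul_card_subgroup C]
    exact lt_mul_of_one_lt_right Nat.card_pos hC1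
  obtain ⟨hcen, -, hcomb, hsqb, hLb⟩ := ih _ hlt (Q ⧸ C) rfl αb eb _ Sb hneb
  have hpull : ∀ x : Q, (x : Q ⧸ C) ∈ D.map (QuotientGroup.mk' C) → x ∈ D := by
    rintro x ⟨d, hd, hdx⟩
    have h : d⁻¹ * x ∈ C := QuotientGroup.eq.1 hdx
    have := D.mul_mem hd (hCD h)
    rwa [mul_inv_cancel_left] at this
  haveI hDn : D.Normal := by
    refine ⟨fun d hd y => hpull _ ?_⟩
    have h : (d : Q ⧸ C) ∈ Subgroup.center (Q ⧸ C) := hcen.symm ▸ ⟨d, hd, rfl⟩
    rw [QuotientGroup.mk_mul, QuotientGroup.mk_mul, QuotientGroup.mk_inv,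
      Subgroup.mem_center_iff.1 h (y : Q ⧸ C), mul_inv_cancel_right]
    exact ⟨d, hd, rfl⟩
  have hcD : ∀ x y : Q, ⁅x, y⁆ ∈ D := fun x y => hpull _ (hcomb (x : Q ⧸ C) (y : Q ⧸ C))
  have hsqD : ∀ x : Q, x * x ∈ D := fun x => hpull _ (hsqb (x : Q ⧸ C))
  have hDQ : ∀ d ∈ D, ∀ y : Q, ⁅d, y⁆ ∈ C := by
    intro d hd y
    have h : (d : Q ⧸ C) ∈ Subgroup.center (Q ⧸ C) := hcen.symm ▸ ⟨d, hd, rfl⟩
    exact (QuotientGroup.eq_one_iff ⁅d, y⁆).1
      (commutatorElement_eq_one_iff_mul_comm.2 (Subgroup.mem_center_iff.1 h (y : Q ⧸ C)).symm :)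
  have hQD : ∀ d ∈ D, ∀ y : Q, ⁅y, d⁆ ∈ C := fun d hd y => by
    rw [← commutatorElement_inv]; exact inv_mem (hDQ d hd y)
  have hDD : ∀ d ∈ D, ∀ d' ∈ D, d * d' = d' * d := by
    have hP : Pairing g e e e D C D C C (fun x y => ⁅x, y⁆) :=
      { left := hLinD
        right := hLinD
        value := S.lin
        mem := fun x hx y _ => hDQ x hx y
        add_left := fun x _ x' hx' y _ => comm_mul_left (hCZ (hDQ x' hx' y))
        add_right := fun x hx y _ y' _ => comm_mul_right (hCZ (hDQ x hx y'))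
        ker_left := fun t ht _ y _ => commutatorElement_eq_one_iff_mul_comm.2 (hcz ht y).symm
        ker_right := fun x _ t ht _ => commutatorElement_eq_one_iff_mul_comm.2 (hcz ht x)
        equiv := fun x _ y _ => (map_commutatorElement e x y).symm }
    intro d hd d' hd'
    exact commutatorElement_eq_one_iff_mul_comm.1
      (hP.line hg (fun x _ => commutatorElement_self x) hcardD.le hd hd')
  have hLQD : Lin g e ⊤ D := by
    refine ⟨fun x _ => Subgroup.mem_top _, heD, fun x _ => hsqD x, ?_, ?_⟩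
    · intro k l h x _
      refine hpull _ ?_
      have := hLb.eqv k l h (x : Q ⧸ C) trivial
      rwa [hpow, hpow] at this
    · intro k l m h x _
      refine hpull _ ?_
      have := hLb.tri k l m h (x : Q ⧸ C) trivial
      rwa [hpow, hpow, hpow] at this
  have hP : Pairing g e e e D C ⊤ D C (fun x y => ⁅x, y⁆) :=
    { left := hLinD
      right := hLQD
      value := S.lin
      mem := fun x hx y _ => hDQ x hx y
      add_left := fun x _ x' hx' y _ => comm_mul_left (hCZ (hDQ x' hx' y))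
      add_right := fun x hx y _ y' _ => comm_mul_right (hCZ (hDQ x hx y'))
      ker_left := fun t ht _ y _ => commutatorElement_eq_one_iff_mul_comm.2 (hcz ht y).symm
      ker_right := fun x hx t ht _ => commutatorElement_eq_one_iff_mul_comm.2 (hDD x hx t ht)
      equiv := fun x _ y _ => (map_commutatorElement e x y).symm }
  have hB : Pairing g eb eb eb ⊤ (D.map (QuotientGroup.mk' C)) ⊤ (D.map (QuotientGroup.mk' C))
      (D.map (QuotientGroup.mk' C)) (fun x y => ⁅x, y⁆) :=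
    { left := hLb
      right := hLb
      value := Sb.lin
      mem := fun x _ y _ => hcomb x y
      add_left := fun x _ x' _ y _ => comm_mul_left (hcen.symm ▸ hcomb x' y)
      add_right := fun x _ y _ y' _ => comm_mul_right (hcen.symm ▸ hcomb x y')
      ker_left := fun t ht _ y _ => by
        rw [← hcen] at ht
        exact commutatorElement_eq_one_iff_mul_comm.2 (Subgroup.mem_center_iff.1 ht y).symm
      ker_right := fun x _ t ht _ => by
        rw [← hcen] at ht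
        exact commutatorElement_eq_one_iff_mul_comm.2 (Subgroup.mem_center_iff.1 ht x)
      equiv := fun x _ y _ => (map_commutatorElement eb x y).symm }
  -- the first coordinate scales with half the exponent
  have hBl : ∀ (k : ℕ) (a b : Q), ((e ^ k) ⁅a, b⁆)⁻¹ * ⁅(e ^ (k + k)) a, b⁆ ∈ C := by
    intro k a b
    refine QuotientGroup.eq.1 ?_
    have h := hB.dbl hg k (x := (a : Q ⧸ C)) trivial (y := (b : Q ⧸ C)) trivial
    rw [hpow] at h
    rw [← hpow k ⁅a, b⁆]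
    exact h.symm
  have hBr : ∀ (k : ℕ) (a b : Q), ((e ^ k) ⁅a, b⁆)⁻¹ * ⁅a, (e ^ (k + k)) b⁆ ∈ C := by
    intro k a b
    refine QuotientGroup.eq.1 ?_
    have h := hB.swap hg (k + k) (x := (a : Q ⧸ C)) trivial (y := (b : Q ⧸ C)) trivial
    rw [hB.dbl hg k (x := (a : Q ⧸ C)) trivial (y := (b : Q ⧸ C)) trivial, hpow] at h
    rw [← hpow k ⁅a, b⁆]
    exact h
  have hc2 : ∀ d ∈ D, ∀ y : Q, ⁅d, y⁆ * ⁅d, y⁆ = 1 := fun d hd y => hCsq _ (hDQ d hd y)
  have hjac := jacobi hcD hDD (fun d hd y => hCZ (hDQ d hd y)) hc2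
  have hJ : ∀ a b c : Q, ⁅⁅a, b⁆, c⁆ = 1 := by
    intro a b c
    set X := ⁅⁅a, b⁆, c⁆ with hX
    set Y := ⁅⁅b, c⁆, a⁆ with hY
    set W := ⁅⁅c, a⁆, b⁆ with hW
    have hXC : X ∈ C := hDQ _ (hcD a b) c
    have hYC : Y ∈ C := hDQ _ (hcD b c) a
    have hWC : W ∈ C := hDQ _ (hcD c a) b
    have h1 : ⁅⁅a, b⁆, (e ^ 4) c⁆ = (e ^ 2) X := by
      rw [← hP.swap hg 4 (hcD a b) trivial]
      exact hP.dbl hg 2 (hcD a b) trivial
    have hm : ∀ x : Q, ∀ d ∈ D, (e ^ 2) d ∈ D := fun _ d hd => pow_mem_of heD 2 d hd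
    have h2 : ⁅⁅b, (e ^ 4) c⁆, a⁆ = (e ^ 1) Y := by
      rw [hP.congr_left (pow_mem_of heD 2 _ (hcD b c)) (hcD b _) (hBr 2 b c) trivial]
      exact hP.dbl hg 1 (hcD b c) trivial
    have h3 : ⁅⁅(e ^ 4) c, a⁆, b⁆ = (e ^ 1) W := by
      rw [hP.congr_left (pow_mem_of heD 2 _ (hcD c a)) (hcD _ a) (hBl 2 c a) trivial]
      exact hP.dbl hg 1 (hcD c a) trivial
    have hj := hjac a b ((e ^ 4) c)
    rw [h1, h2, h3, mul_assoc, ← map_mul] at hj
    have hj0 := hjac a b c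
    rw [← hX, ← hY, ← hW, mul_assoc] at hj0
    rw [← inv_eq_of_mul_eq_one_right hj0, inv_eq_of_mul_eq_one_right (hCsq X hXC)] at hj
    have h21 : (e ^ 2) X = (e ^ 1) ((e ^ 1) X) := pow_add_apply e 1 1 X
    rw [h21, ← map_mul] at hj
    have h4 : (e ^ 1) X * X = 1 := (e ^ 1).injective (hj.trans (map_one _).symm)
    have h5 : X⁻¹ * (e ^ 1) X ∈ (⊥ : Subgroup Q) := by
      rw [inv_eq_of_mul_eq_one_right (hCsq X hXC)]
      exact Subgroup.mem_bot.2 (mul_eq_one_comm.1 h4)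
    exact Subgroup.mem_bot.1 (S.lin.fix hg hXC (by rw [pow_one]; exact hg.ne_one) h5)
  obtain ⟨a0, b0, hab0⟩ : ∃ a b : Q, ⁅a, b⁆ ∉ C := by
    by_contra! h; exact hcon h
  have hDcen : ∀ d ∈ D, d ∈ Subgroup.center Q := by
    intro d hd
    rw [Subgroup.mem_center_iff]
    intro y
    refine (commutatorElement_eq_one_iff_mul_comm.1 ?_).symm
    by_cases hdC : d ∈ C
    · exact commutatorElement_eq_one_iff_mul_comm.2 (hcz hdC y).symm
    obtain ⟨k, hk⟩ := hLinD.exists_pow hg hcardD.le (hcD a0 b0) hab0 hd hdC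
    have hkD := pow_mem_of heD k _ (hcD a0 b0)
    rw [hP.congr_left hkD hd hk trivial, ← hP.congr_left hkD (hcD _ b0) (hBl k a0 b0) trivial]
    exact hJ _ b0 y
  have hc2' : ∀ x y : Q, ⁅x, y⁆ * ⁅x, y⁆ = 1 := fun x y => by
    rw [← comm_mul_left (hDcen _ (hcD x y))]
    exact commutatorElement_eq_one_iff_mul_comm.2 (Subgroup.mem_center_iff.1 (hDcen _ (hsqD x)) y).symm
  exact hcon (S.classTwo hg hne (fun x y => hDcen _ (hcD x y)) hc2').2.2.1

theorem structure_thm (hg : Gen g n) {Q : Type u} [Group Q] [Finite Q] {α e : MulAut Q} {C : Subgroup Q}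
    (S : Setup g n α e C) (hne : ¬ ∀ a b : Q, a * b = b * a) :
    Subgroup.center Q = C ∧ Nat.card Q = (2 ^ n) ^ 3 ∧ (∀ x y : Q, ⁅x, y⁆ ∈ C) ∧ (∀ x : Q, x * x ∈ C) ∧
      Lin g e ⊤ C :=
  structure_aux hg _ Q rfl α e C S hne

end Setup

end Cfsg.Agent.Lib.PairTwo
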