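import Cfsg.Agent.Lib.PairTwo.Core
import Mathlib

/-!
The structure theorem: order `q ^ 3`, centre = fixed points.
-/

set_option autoImplicit false

namespace Cfsg.Agent.Lib.PairTwo

open scoped commutatorElement

universe u

variable {F : Type} [Field F] [Fintype F] [CharP F 2] {Q : Type u} [Group Q]

/-- The hypotheses. -/
structure Setup (g : F) (n : ℕ) (α e : MulAut Q) (C : Subgroup Q) : Prop where
  fixed : ∀ x, x ∈ C ↔ α x = x
  invol : ∀ x, α (α x) = x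
  comm : ∀ x, α (e x) = e (α x)
  period : e ^ (2 ^ n - 1) = 1
  pgroup : IsPGroup 2 Q
  card : Nat.card C = 2 ^ n
  lin : Lin g e C ⊥

theorem fixed_point {Q : Type u} [Group Q] [Finite Q] (hQ : IsPGroup 2 Q) [Nontrivial Q] (α : Q → Q)
    (hα : ∀ x, α (α x) = x) (h1 : α 1 = 1) : ∃ x, x ≠ 1 ∧ α x = x := by
  classical
  letI := Fintype.ofFinite Q
  haveI : Fact (Nat.Prime 2) := ⟨Nat.prime_two⟩
  let f : Function.End Q := α
  have hf : f ^ 2 ^ 1 = 1 := funext fun x => by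
    show α (α x) = x
    exact hα x
  have hmod := Equiv.Perm.card_fixedPoints_modEq (p := 2) (n := 1) hf
  obtain ⟨a, ha⟩ := hQ.exists_card_eq
  have h2 : 2 ∣ Nat.card Q := by
    rw [ha]
    refine dvd_pow_self 2 ?_
    rintro rfl
    have := Finite.one_lt_card (α := Q)
    rw [ha] at this
    omega
  rw [← Nat.card_eq_fintype_card, ← Nat.card_eq_fintype_card, Nat.ModEq] at hmod
  haveI : Nonempty (Function.fixedPoints f) := ⟨⟨1, h1⟩⟩
  have h3 : 1 < Nat.card (Function.fixedPoints f) := by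
    have := Nat.card_pos (α := Function.fixedPoints f)
    omega
  obtain ⟨⟨x, hx⟩, ⟨y, hy⟩, hne⟩ := (Finite.one_lt_card_iff_nontrivial.1 h3).exists_pair_ne
  by_cases hx1 : x = 1
  · exact ⟨y, fun h => hne (Subtype.ext (hx1.trans h.symm)), hy⟩
  · exact ⟨x, hx1, hx⟩

namespace Setup

variable [Finite Q] {g : F} {n : ℕ} (hg : Gen g n) {α e : MulAut Q} {C : Subgroup Q}
  (S : Setup g n α e C)
include S

omit [Fintype F] [CharP F 2] in
theorem exists_fixed (H : Subgroup Q) (hH : H ≠ ⊥) (hα : ∀ x ∈ H, α x ∈ H) : ∃ c ∈ H, c ∈ C ∧ c ≠ 1 := by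
  haveI : Nontrivial H := H.nontrivial_iff_ne_bot.2 hH
  obtain ⟨x, hx1, hx⟩ := fixed_point (S.pgroup.to_subgroup H) (fun y => ⟨α y, hα y y.2⟩)
    (fun y => Subtype.ext (S.invol y)) (Subtype.ext (map_one α))
  exact ⟨x, x.2, (S.fixed _).2 (congrArg Subtype.val hx), fun h => hx1 (Subtype.ext h)⟩

omit [Fintype F] [CharP F 2] in
theorem exists_fixed_mod (N : Subgroup Q) [N.Normal] (hN : N ≠ ⊤) (hα : ∀ x ∈ N, α x ∈ N) :
    ∃ x, x ∉ N ∧ x⁻¹ * α x ∈ N := by
  haveI : Nontrivial (Q ⧸ N) := by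
    obtain ⟨x, hx⟩ : ∃ x, x ∉ N := by
      by_contra! h
      exact hN (eq_top_iff.2 fun x _ => h x)
    exact ⟨⟨(x : Q ⧸ N), 1, fun h => hx ((QuotientGroup.eq_one_iff x).1 h)⟩⟩
  let b : Q ⧸ N →* Q ⧸ N := QuotientGroup.map N N α.toMonoidHom fun x hx => hα x hx
  obtain ⟨y, hy1, hy⟩ := fixed_point (S.pgroup.to_quotient N) b
    (fun y => QuotientGroup.induction_on y fun x => by
      show ((α (α x) : Q) : Q ⧸ N) = x
      rw [S.invol])
    (map_one b)
  obtain ⟨x, rfl⟩ := QuotientGroup.mk_surjective y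
  refine ⟨x, fun h => hy1 ((QuotientGroup.eq_one_iff x).2 h), QuotientGroup.eq.1 ?_⟩
  exact hy.symm

omit [Fintype F] [CharP F 2] in
theorem bot_map : Nat.card ↥(C.map (QuotientGroup.mk' (⊥ : Subgroup Q))) ≤ 2 ^ n := by
  rw [← S.card]
  exact Nat.le_of_dvd Nat.card_pos (Subgroup.card_map_dvd _ _)

include hg

theorem irred (H : Subgroup Q) (hH : H ≠ ⊥) (hα : ∀ x ∈ H, α x ∈ H) (he : ∀ x ∈ H, e x ∈ H) : C ≤ H := by
  obtain ⟨c, hcH, hcC, hc1⟩ := S.exists_fixed H hH hα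
  intro d hd
  by_cases hd1 : d = 1
  · rw [hd1]; exact one_mem H
  obtain ⟨k, hk⟩ := S.lin.exists_pow hg S.bot_map hcC (by simpa using hc1) hd (by simpa using hd1)
  rw [Subgroup.mem_bot, inv_mul_eq_one] at hk
  rw [← hk]
  exact pow_mem_of he k c hcH

omit hg [Fintype F] [CharP F 2] in
theorem map_center (β : MulAut Q) {x : Q} (hx : x ∈ Subgroup.center Q) : β x ∈ Subgroup.center Q := by
  rw [Subgroup.mem_center_iff] at hx ⊢
  intro y
  obtain ⟨y, rfl⟩ := β.surjective y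
  rw [← map_mul, ← map_mul, hx]

theorem le_center : C ≤ Subgroup.center Q := by
  rcases subsingleton_or_nontrivial Q with h | h
  · intro x _; rw [Subsingleton.elim x 1]; exact one_mem _
  haveI : Fact (Nat.Prime 2) := ⟨Nat.prime_two⟩
  refine S.irred hg _ ?_ (fun x hx => S.map_center α hx) (fun x hx => S.map_center e hx)
  exact (Subgroup.center Q).nontrivial_iff_ne_bot.1 S.pgroup.center_nontrivial

omit hg [Fintype F] [CharP F 2] in
theorem comm_pow (k : ℕ) : ∀ x, α ((e ^ k) x) = (e ^ k) (α x) := by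
  induction k with
  | zero => intro x; simp
  | succ k ih => intro x; rw [pow_succ, MulAut.mul_apply, MulAut.mul_apply, ih, S.comm]

omit hg [Fintype F] [CharP F 2] in
theorem diff_e (x : Q) : (e x)⁻¹ * α (e x) = e (x⁻¹ * α x) := by rw [S.comm, map_mul, map_inv]

/-- The conclusion. -/
theorem classTwo (hne : ¬ ∀ a b : Q, a * b = b * a)
    (hcz : ∀ x y : Q, ⁅x, y⁆ ∈ Subgroup.center Q) (hc2 : ∀ x y : Q, ⁅x, y⁆ * ⁅x, y⁆ = 1) :
    Subgroup.center Q = C ∧ Nat.card Q = (2 ^ n) ^ 3 ∧ (∀ x y : Q, ⁅x, y⁆ ∈ C) ∧ (∀ x : Q, x * x ∈ C) ∧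
      Lin g e ⊤ C := by
  haveI : Fact (Nat.Prime 2) := ⟨Nat.prime_two⟩
  set Z := Subgroup.center Q with hZdef
  have hCZ : C ≤ Z := S.le_center hg
  have hzc : ∀ {z : Q}, z ∈ Z → ∀ y, y * z = z * y := fun hz => Subgroup.mem_center_iff.1 hz
  have hαZ : ∀ z ∈ Z, α z ∈ Z := fun z hz => S.map_center α hz
  have heZ : ∀ z ∈ Z, e z ∈ Z := fun z hz => S.map_center e hz
  have hsqZ : ∀ x, x * x ∈ Z := by
    intro x
    rw [hZdef, Subgroup.mem_center_iff]
    intro y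
    exact (commutatorElement_eq_one_iff_mul_comm.1 (by
      rw [comm_mul_left (hcz x y)]; exact hc2 x y)).symm
  have hZtop : Z ≠ ⊤ := fun h => hne fun a b =>
    (hzc (z := b) (by rw [h]; trivial) a)
  have hC1 : ∃ c ∈ C, c ≠ 1 := by
    by_contra! h
    have : C = ⊥ := (Subgroup.eq_bot_iff_forall C).2 h
    have hc := S.card
    rw [this, Subgroup.card_bot] at hc
    have := hg.four_le
    omega
  -- `α` inverts the centre
  let zh : ∀ β : Q → Q, (∀ z ∈ Z, β z ∈ Z) → (∀ a ∈ Z, ∀ b ∈ Z, β (a * b) = β a * β b) → (Z →* Z) :=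
    fun β h h' => MonoidHom.mk' (fun z => ⟨β z, h z z.2⟩) fun a b => Subtype.ext (h' a a.2 b b.2)
  let dZ : Z →* Z := zh (fun z => z⁻¹ * α z) (fun z hz => Z.mul_mem (Z.inv_mem hz) (hαZ z hz))
    fun a ha b hb => by
      rw [map_mul, show (a * b)⁻¹ * (α a * α b) = b⁻¹ * (a⁻¹ * α a) * b * (b⁻¹ * α b) by group,
        hzc (Z.mul_mem (Z.inv_mem ha) (hαZ a ha)) b⁻¹, inv_mul_cancel_right]
  let nZ : Z →* Z := zh (fun z => z * α z) (fun z hz => Z.mul_mem hz (hαZ z hz))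
    fun a ha b hb => by
      rw [map_mul, mul_assoc, ← mul_assoc b, hzc (hαZ a ha) b, mul_assoc (α a), ← mul_assoc a]
  let sZ : Z →* Z := zh (fun z => z * z) (fun z hz => Z.mul_mem hz hz)
    fun a ha b hb => by
      rw [mul_assoc, ← mul_assoc b, hzc ha b, mul_assoc a b b, ← mul_assoc a]
  have hdZ : ∀ z : Z, (dZ z : Q) = (z : Q)⁻¹ * α z := fun _ => rfl
  have hnZ : ∀ z : Z, (nZ z : Q) = (z : Q) * α z := fun _ => rfl
  have hkerd : dZ.ker = C.subgroupOf Z := by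
    ext z
    rw [MonoidHom.mem_ker, Subgroup.mem_subgroupOf, S.fixed, ← Subtype.coe_inj, hdZ, Subgroup.coe_one,
      inv_mul_eq_one, eq_comm]
  have hcardC' : Nat.card (C.subgroupOf Z) = 2 ^ n := by
    rw [Nat.card_congr (Subgroup.subgroupOfEquivOfLe hCZ).toEquiv, S.card]
  have key : ∀ φ : Z →* Z, Nat.card φ.ker * Nat.card φ.range = Nat.card Z := fun φ => by
    rw [← Subgroup.index_ker]; exact φ.ker.card_mul_index
  have hinv : ∀ z ∈ Z, α z = z⁻¹ := by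
    by_contra hcon
    push Not at hcon
    obtain ⟨z0, hz0, hz01⟩ := hcon
    have hrange : ∀ c ∈ C, ∃ z : Z, (z : Q) * α z = c := by
      have hle : C ≤ nZ.range.map Z.subtype := by
        refine S.irred hg _ ?_ ?_ ?_
        · intro hb
          have : (z0 : Q) * α z0 ∈ (⊥ : Subgroup Q) := hb ▸ ⟨nZ ⟨z0, hz0⟩, ⟨_, rfl⟩, rfl⟩
          exact hz01 (inv_eq_of_mul_eq_one_right (Subgroup.mem_bot.1 this)).symm
        · rintro _ ⟨_, ⟨z, rfl⟩, rfl⟩
          refine ⟨nZ ⟨α z, hαZ z z.2⟩, ⟨_, rfl⟩, ?_⟩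
          show α z * α (α z) = α ((z : Q) * α z)
          rw [map_mul]
        · rintro _ ⟨_, ⟨z, rfl⟩, rfl⟩
          refine ⟨nZ ⟨e z, heZ z z.2⟩, ⟨_, rfl⟩, ?_⟩
          show e z * α (e z) = e ((z : Q) * α z)
          rw [map_mul, S.comm]
      intro c hc
      obtain ⟨_, ⟨z, rfl⟩, hz⟩ := hle hc
      exact ⟨z, hz⟩
    have hr : nZ.range = C.subgroupOf Z := by
      refine le_antisymm ?_ fun c hc => ?_
      · rintro _ ⟨z, rfl⟩
        rw [Subgroup.mem_subgroupOf, hnZ, S.fixed, map_mul, S.invol]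
        exact (hzc (hαZ z z.2) (z : Q)).symm
      · obtain ⟨z, hz⟩ := hrange c (Subgroup.mem_subgroupOf.1 hc)
        exact ⟨z, Subtype.ext hz⟩
    have hle : dZ.range ≤ nZ.ker := by
      rintro _ ⟨z, rfl⟩
      rw [MonoidHom.mem_ker]
      apply Subtype.ext
      show (z : Q)⁻¹ * α z * α ((z : Q)⁻¹ * α z) = 1
      rw [map_mul, map_inv, S.invol]; group
    have h1 := key dZ
    have h2 := key nZ
    rw [hkerd, hcardC'] at h1
    rw [hr, hcardC'] at h2
    have heq : dZ.range = nZ.ker := Subgroup.eq_of_le_of_card_ge hle (by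
      refine le_of_eq (Nat.eq_of_mul_eq_mul_left (show 0 < 2 ^ n by positivity) ?_)
      rw [h1, mul_comm, h2])
    obtain ⟨x, hxZ, hx⟩ := S.exists_fixed_mod Z hZtop hαZ
    have hk : (⟨x⁻¹ * α x, hx⟩ : Z) ∈ nZ.ker := by
      rw [MonoidHom.mem_ker]
      apply Subtype.ext
      show x⁻¹ * α x * α (x⁻¹ * α x) = 1
      rw [map_mul, map_inv, S.invol]; group
    rw [← heq] at hk
    obtain ⟨z, hz⟩ := hk
    have hz' : (z : Q)⁻¹ * α z = x⁻¹ * α x := congrArg Subtype.val hz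
    have : x * (z : Q)⁻¹ ∈ C := by
      rw [S.fixed, map_mul, map_inv, show α x = x * (x⁻¹ * α x) by group, ← hz', mul_assoc, mul_assoc,
        mul_inv_cancel, mul_one]
    exact hxZ (by simpa using Z.mul_mem (hCZ this) z.2)
  have hOmega : ∀ z ∈ Z, z * z = 1 → z ∈ C := fun z hz h => by
    rw [S.fixed, hinv z hz, inv_eq_of_mul_eq_one_right h]
  have hCsq : ∀ c ∈ C, c * c = 1 := fun c hc => Subgroup.mem_bot.1 (S.lin.sq c hc)
  have hcomC : ∀ x y : Q, ⁅x, y⁆ ∈ C := fun x y => hOmega _ (hcz x y) (hc2 x y)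
  -- the exponent of the centre
  obtain ⟨j, hj, hj'⟩ : ∃ j : ℕ, (∀ z ∈ Z, z ^ 2 ^ (j + 1) = 1) ∧ ∃ z ∈ Z, z ^ 2 ^ j ≠ 1 := by
    classical
    have hex : ∃ k : ℕ, ∀ z ∈ Z, z ^ 2 ^ k = 1 := by
      obtain ⟨a, ha⟩ := S.pgroup.exists_card_eq
      exact ⟨a, fun z _ => by rw [← ha]; exact pow_card_eq_one'⟩
    have h0 : Nat.find hex ≠ 0 := fun h0 => by
      obtain ⟨c, hc, hc1⟩ := hC1
      have := Nat.find_spec hex c (hCZ hc)
      rw [h0, pow_zero, pow_one] at this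
      exact hc1 this
    refine ⟨Nat.find hex - 1, ?_, ?_⟩
    · rw [Nat.sub_add_cancel (Nat.pos_of_ne_zero h0)]; exact Nat.find_spec hex
    · have := Nat.find_min hex (show Nat.find hex - 1 < Nat.find hex by omega)
      push Not at this
      exact this
  have hhC : ∀ z ∈ Z, z ^ 2 ^ j ∈ C := fun z hz => hOmega _ (Z.pow_mem hz _) (by
    rw [← pow_add, ← two_mul, ← pow_succ']; exact hj z hz)
  let hH : Z →* Z := zh (fun z => z ^ 2 ^ j) (fun z hz => Z.pow_mem hz _)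
    fun a ha b hb => (show Commute a b from hzc hb a).mul_pow _
  have hhr : hH.range = C.subgroupOf Z := by
    refine le_antisymm (by rintro _ ⟨z, rfl⟩; exact hhC z z.2) fun c hc => ?_
    have hle : C ≤ hH.range.map Z.subtype := by
      refine S.irred hg _ ?_ ?_ ?_
      · obtain ⟨z, hz, hz1⟩ := hj'
        intro hb
        have : z ^ 2 ^ j ∈ (⊥ : Subgroup Q) := hb ▸ ⟨hH ⟨z, hz⟩, ⟨_, rfl⟩, rfl⟩
        exact hz1 (Subgroup.mem_bot.1 this)
      · rintro _ ⟨_, ⟨z, rfl⟩, rfl⟩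
        exact ⟨hH ⟨α z, hαZ z z.2⟩, ⟨_, rfl⟩, (map_pow α _ _).symm⟩
      · rintro _ ⟨_, ⟨z, rfl⟩, rfl⟩
        exact ⟨hH ⟨e z, heZ z z.2⟩, ⟨_, rfl⟩, (map_pow e _ _).symm⟩
    obtain ⟨_, ⟨z, rfl⟩, hz⟩ := hle (Subgroup.mem_subgroupOf.1 hc)
    exact ⟨z, Subtype.ext hz⟩
  have hsker : sZ.ker = C.subgroupOf Z := by
    ext z
    rw [MonoidHom.mem_ker, Subgroup.mem_subgroupOf, ← Subtype.coe_inj]
    exact ⟨fun h => hOmega _ z.2 h, fun h => hCsq _ h⟩
  have hsr : sZ.range = hH.ker := by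
    refine Subgroup.eq_of_le_of_card_ge ?_ ?_
    · rintro _ ⟨z, rfl⟩
      rw [MonoidHom.mem_ker]
      apply Subtype.ext
      show ((z : Q) * z) ^ 2 ^ j = 1
      rw [← pow_two, ← pow_mul, ← pow_succ']; exact hj z z.2
    · have h1 := key sZ
      have h2 := key hH
      rw [hsker, hcardC'] at h1
      rw [hhr, hcardC'] at h2
      refine le_of_eq (Nat.eq_of_mul_eq_mul_left (show 0 < 2 ^ n by positivity) ?_)
      rw [h1, mul_comm, h2]
  set S2 : Subgroup Q := sZ.range.map Z.subtype with hS2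
  have hS2mem : ∀ {w : Q}, w ∈ S2 ↔ ∃ z ∈ Z, z * z = w := by
    intro w
    constructor
    · rintro ⟨_, ⟨z, rfl⟩, rfl⟩; exact ⟨z, z.2, rfl⟩
    · rintro ⟨z, hz, rfl⟩; exact ⟨sZ ⟨z, hz⟩, ⟨_, rfl⟩, rfl⟩
  have hS2Z : S2 ≤ Z := Subgroup.map_subtype_le _
  have hh1 : ∀ z ∈ Z, z ^ 2 ^ j = 1 ↔ z ∈ S2 := by
    intro z hz
    constructor
    · intro h
      have : (⟨z, hz⟩ : Z) ∈ sZ.range := by
        rw [hsr, MonoidHom.mem_ker]; exact Subtype.ext h
      exact ⟨_, this, rfl⟩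
    · intro h
      obtain ⟨w, hw, rfl⟩ := hS2mem.1 h
      rw [← pow_two, ← pow_mul, ← pow_succ']; exact hj w hw
  -- the subgroup `E`
  let E : Subgroup Q :=
    { carrier := {x | x⁻¹ * α x ∈ Z}
      one_mem' := by show (1 : Q)⁻¹ * α 1 ∈ Z; rw [map_one, inv_one, one_mul]; exact one_mem Z
      mul_mem' := fun {a b} ha hb => by
        show (a * b)⁻¹ * α (a * b) ∈ Z
        have : (a * b)⁻¹ * α (a * b) = b⁻¹ * (a⁻¹ * α a) * b * (b⁻¹ * α b) := by rw [map_mul]; group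
        rw [this, hzc ha b⁻¹, inv_mul_cancel_right]
        exact Z.mul_mem ha hb
      inv_mem' := fun {a} ha => by
        show a⁻¹⁻¹ * α a⁻¹ ∈ Z
        have : a⁻¹⁻¹ * α a⁻¹ = a * (a⁻¹ * α a)⁻¹ * a⁻¹ := by rw [map_inv]; group
        rw [this, hzc (Z.inv_mem ha) a, mul_inv_cancel_right]
        exact Z.inv_mem ha }
  have hEmem : ∀ x, x ∈ E ↔ x⁻¹ * α x ∈ Z := fun _ => Iff.rfl
  have heE : ∀ x ∈ E, e x ∈ E := fun x hx => by
    rw [hEmem, S.diff_e]; exact heZ _ hx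
  have hδmul : ∀ a ∈ E, ∀ b : Q, (a * b)⁻¹ * α (a * b) = (a⁻¹ * α a) * (b⁻¹ * α b) := fun a ha b => by
    rw [show (a * b)⁻¹ * α (a * b) = b⁻¹ * (a⁻¹ * α a) * b * (b⁻¹ * α b) by rw [map_mul]; group,
      hzc ha b⁻¹, inv_mul_cancel_right]
  let ψ : E →* Q := MonoidHom.mk' (fun x => ((x : Q)⁻¹ * α x) ^ 2 ^ j) fun a b => by
    rw [Subgroup.coe_mul, hδmul a a.2 b]
    exact (show Commute _ _ from hzc b.2 _).mul_pow _
  have hψZ : ∀ x : E, ψ x = 1 ↔ (x : Q) ∈ Z := by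
    intro x
    show ((x : Q)⁻¹ * α x) ^ 2 ^ j = 1 ↔ _
    rw [hh1 _ x.2]
    constructor
    · intro h
      obtain ⟨w, hw, hww⟩ := hS2mem.1 h
      have hwE : w ∈ E := Z.mul_mem (Z.inv_mem hw) (hαZ w hw)
      have : (x : Q) * w ∈ C := by
        rw [S.fixed, eq_comm, ← inv_mul_eq_one, hδmul x x.2 w, ← hww, hinv w hw]; group
      have := Z.mul_mem (hCZ this) (Z.inv_mem hw)
      rwa [mul_inv_cancel_right] at this
    · intro h
      rw [hinv _ h, ← mul_inv_rev]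
      exact inv_mem (hS2mem.2 ⟨_, h, rfl⟩)
  have hψC : ψ.range = C := by
    refine le_antisymm (by rintro _ ⟨x, rfl⟩; exact hhC _ x.2) ?_
    refine S.irred hg _ ?_ ?_ ?_
    · intro hb
      obtain ⟨x, hxZ, hx⟩ := S.exists_fixed_mod Z hZtop hαZ
      have : ψ ⟨x, hx⟩ ∈ (⊥ : Subgroup Q) := hb ▸ ⟨_, rfl⟩
      exact hxZ ((hψZ _).1 (Subgroup.mem_bot.1 this))
    · rintro _ ⟨x, rfl⟩
      refine ⟨x, ?_⟩
      exact ((S.fixed _).1 (hhC _ x.2)).symm
    · rintro _ ⟨x, rfl⟩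
      refine ⟨⟨e x, heE x x.2⟩, ?_⟩
      show ((e (x : Q))⁻¹ * α (e x)) ^ 2 ^ j = e (((x : Q)⁻¹ * α x) ^ 2 ^ j)
      rw [S.diff_e, map_pow]
  have hEpow : ∀ (k : ℕ) (x : E), ψ ⟨(e ^ k) x, pow_mem_of heE k x x.2⟩ = (e ^ k) (ψ x) := by
    intro k x
    show (((e ^ k) (x : Q))⁻¹ * α ((e ^ k) x)) ^ 2 ^ j = (e ^ k) (((x : Q)⁻¹ * α x) ^ 2 ^ j)
    rw [S.comm_pow, map_pow, map_mul, map_inv]
  have hψmem : ∀ x : E, ψ x ∈ C := fun x => hhC _ x.2
  have hLinE : Lin g e E Z := by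
    refine ⟨heE, heZ, fun x _ => hsqZ x, ?_, ?_⟩
    · intro k l h x hx
      have hk := pow_mem_of heE k x hx
      have hl := pow_mem_of heE l x hx
      have h1 := (hψZ (⟨(e ^ k) x, hk⟩⁻¹ * ⟨(e ^ l) x, hl⟩)).1 (by
        rw [map_mul, map_inv, hEpow k ⟨x, hx⟩, hEpow l ⟨x, hx⟩]
        exact Subgroup.mem_bot.1 (S.lin.eqv k l h _ (hψmem ⟨x, hx⟩)))
      exact h1
    · intro k l m h x hx
      have hk := pow_mem_of heE k x hx
      have hl := pow_mem_of heE l x hx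
      have hm := pow_mem_of heE m x hx
      have h1 := (hψZ ((⟨(e ^ k) x, hk⟩ * ⟨(e ^ l) x, hl⟩)⁻¹ * ⟨(e ^ m) x, hm⟩)).1 (by
        rw [map_mul, map_inv, map_mul, hEpow k ⟨x, hx⟩, hEpow l ⟨x, hx⟩, hEpow m ⟨x, hx⟩]
        exact Subgroup.mem_bot.1 (S.lin.tri k l m h _ (hψmem ⟨x, hx⟩)))
      exact h1
  have hZE : Z ≤ E := fun z hz => Z.mul_mem (Z.inv_mem hz) (hαZ z hz)
  have hψker : ψ.ker = Z.subgroupOf E := by
    ext x; rw [MonoidHom.mem_ker, hψZ, Subgroup.mem_subgroupOf]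
  have hcardE : Nat.card E = Nat.card Z * 2 ^ n := by
    rw [← ψ.ker.card_mul_index, Subgroup.index_ker, hψC, S.card, hψker,
      Nat.card_congr (Subgroup.subgroupOfEquivOfLe hZE).toEquiv]
  have hmapE : Nat.card ↥(E.map (QuotientGroup.mk' Z)) = 2 ^ n := by
    let φ : E →* Q ⧸ Z := (QuotientGroup.mk' Z).comp E.subtype
    have hr : φ.range = E.map (QuotientGroup.mk' Z) := by
      rw [MonoidHom.range_comp, Subgroup.range_subtype]
    have hk : φ.ker = Z.subgroupOf E := by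
      ext x; exact QuotientGroup.eq_one_iff (x : Q)
    have h1 := φ.ker.card_mul_index
    rw [Subgroup.index_ker, hr, hk, Nat.card_congr (Subgroup.subgroupOfEquivOfLe hZE).toEquiv, hcardE] at h1
    exact Nat.eq_of_mul_eq_mul_left Nat.card_pos h1
  have hLinQ : Lin g e ⊤ Z :=
    lin_ext hg Z S.comm hαZ heZ S.period hsqZ hcz S.invol hEmem hLinE
  have hEtop : E ≠ ⊤ := by
    intro hE
    have hP : Pairing g e e e (⊤ : Subgroup Q) Z ⊤ Z C (fun x y => ⁅x, y⁆) :=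
      { left := hLinQ
        right := hLinQ
        value := S.lin
        mem := fun x _ y _ => hcomC x y
        add_left := fun x _ x' _ y _ => comm_mul_left (hcz x' y)
        add_right := fun x _ y _ y' _ => comm_mul_right (hcz x y')
        ker_left := fun t ht _ y _ => commutatorElement_eq_one_iff_mul_comm.2 (hzc ht y).symm
        ker_right := fun x _ t ht _ => commutatorElement_eq_one_iff_mul_comm.2 (hzc ht x)
        equiv := fun x _ y _ => (map_commutatorElement e x y).symm }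
    refine hne fun a b => commutatorElement_eq_one_iff_mul_comm.1 ?_
    exact hP.line hg (fun x _ => commutatorElement_self x) (by rw [← hE, hmapE]) trivial trivial
  -- the index of `E`
  have hq : ∀ a b : Q ⧸ Z, a * b = b * a := fun a b => QuotientGroup.induction_on a fun a =>
    QuotientGroup.induction_on b fun b => commutatorElement_eq_one_iff_mul_comm.1
      ((QuotientGroup.eq_one_iff ⁅a, b⁆).2 (hcz a b))
  let d : Q →* Q ⧸ Z := MonoidHom.mk' (fun y => ((y⁻¹ * α y : Q) : Q ⧸ Z)) fun a b => by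
    rw [show (a * b)⁻¹ * α (a * b) = b⁻¹ * (a⁻¹ * α a) * b * (b⁻¹ * α b) by rw [map_mul]; group,
      QuotientGroup.mk_mul, QuotientGroup.mk_mul, QuotientGroup.mk_mul, QuotientGroup.mk_inv,
      hq ((b : Q ⧸ Z)⁻¹), inv_mul_cancel_right]
  have hdker : d.ker = E := by
    ext x; exact QuotientGroup.eq_one_iff (x⁻¹ * α x)
  have hδE : ∀ y : Q, y⁻¹ * α y ∈ E := fun y => by
    rw [hEmem, map_mul, map_inv, S.invol, show (y⁻¹ * α y)⁻¹ * ((α y)⁻¹ * y) =
      (y⁻¹ * α y)⁻¹ * (y⁻¹ * α y)⁻¹ by group]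
    exact hsqZ _
  have hdle : d.range ≤ E.map (QuotientGroup.mk' Z) := by
    rintro _ ⟨y, rfl⟩; exact ⟨_, hδE y, rfl⟩
  have hidx : E.index = 2 ^ n := by
    rw [← hdker, Subgroup.index_ker]
    refine le_antisymm ((Subgroup.card_le_of_le hdle).trans hmapE.le) ?_
    obtain ⟨y, hy⟩ : ∃ y, y ∉ E := by
      by_contra! h; exact hEtop (eq_top_iff.2 fun y _ => h y)
    have hmem : ∀ o : Option (Fin (2 ^ n - 1)),
        o.elim (1 : Q ⧸ Z) (fun i => (((e ^ (i : ℕ)) (y⁻¹ * α y) : Q) : Q ⧸ Z)) ∈ d.range := by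
      rintro (_ | i)
      · exact one_mem _
      · refine ⟨(e ^ (i : ℕ)) y, ?_⟩
        show ((((e ^ (i : ℕ)) y)⁻¹ * α ((e ^ (i : ℕ)) y) : Q) : Q ⧸ Z) = _
        rw [S.comm_pow, ← map_inv, ← map_mul]
        rfl
    have := Nat.card_le_card_of_injective (fun o => (⟨_, hmem o⟩ : d.range))
      fun a b h => hLinE.inj hg (hδE y) (fun h => hy h) (congrArg Subtype.val h)
    rw [Nat.card_eq_fintype_card, Fintype.card_option, Fintype.card_fin] at this
    have := hg.four_le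
    omega
  have hcardQ : Nat.card Q = Nat.card Z * 2 ^ n * 2 ^ n := by
    rw [← E.card_mul_index, hidx, hcardE]
  -- the centre is elementary
  have hZC : Z = C := by
    refine le_antisymm (fun z0 hz0 => ?_) hCZ
    by_contra hz0C
    have hz01 : z0 * z0 ≠ 1 := fun h => hz0C (hOmega _ hz0 h)
    haveI : S2.Normal := ⟨fun w hw y => by
      rw [hzc (hS2Z hw) y, mul_inv_cancel_right]; exact hw⟩
    have hCS2 : C ≤ S2 := by
      refine S.irred hg _ ?_ ?_ ?_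
      · intro hb
        exact hz01 (Subgroup.mem_bot.1 (hb ▸ hS2mem.2 ⟨z0, hz0, rfl⟩))
      · intro w hw
        obtain ⟨z, hz, rfl⟩ := hS2mem.1 hw
        exact hS2mem.2 ⟨α z, hαZ z hz, (map_mul α z z).symm⟩
      · intro w hw
        obtain ⟨z, hz, rfl⟩ := hS2mem.1 hw
        exact hS2mem.2 ⟨e z, heZ z hz, (map_mul e z z).symm⟩
    have key2 : ∀ x ∈ E, x * x ∈ S2 → x ∈ Z := by
      intro x hx hxx
      have hc : x * x * (x⁻¹ * α x) ∈ C := by
        rw [S.fixed, map_mul, map_mul, map_mul, map_inv, S.invol,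
          show α x * α x * ((α x)⁻¹ * x) = α x * x by group, show α x = x * (x⁻¹ * α x) by group,
          mul_assoc x, ← hzc hx x, ← mul_assoc, inv_mul_cancel_left]
      have h1 := S2.mul_mem (S2.inv_mem hxx) (hCS2 hc)
      rw [inv_mul_cancel_left] at h1
      exact (hψZ ⟨x, hx⟩).1 ((hh1 _ hx).2 h1)
    let sq : Q →* Q ⧸ S2 := MonoidHom.mk' (fun y => ((y * y : Q) : Q ⧸ S2)) fun a b => by
      rw [← QuotientGroup.mk_mul, QuotientGroup.eq]
      have : (a * b * (a * b))⁻¹ * (a * a * (b * b)) = b⁻¹ * ⁅a⁻¹, b⁻¹⁆ * b := by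
        simp only [commutatorElement_def]; group
      rw [this, hzc (hCZ (hcomC _ _)) b⁻¹, inv_mul_cancel_right]
      exact hCS2 (hcomC _ _)
    have hsqle : sq.range ≤ Z.map (QuotientGroup.mk' S2) := by
      rintro _ ⟨y, rfl⟩; exact ⟨_, hsqZ y, rfl⟩
    have hcz' : Nat.card ↥(Z.map (QuotientGroup.mk' S2)) = 2 ^ n := by
      let φ : Z →* Q ⧸ S2 := (QuotientGroup.mk' S2).comp Z.subtype
      have hr : φ.range = Z.map (QuotientGroup.mk' S2) := by
        rw [MonoidHom.range_comp, Subgroup.range_subtype]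
      have hk : φ.ker = S2.subgroupOf Z := by
        ext x; exact QuotientGroup.eq_one_iff (x : Q)
      have h1 := φ.ker.card_mul_index
      have hcs : Nat.card S2 = Nat.card sZ.range := Subgroup.card_map_of_injective Z.subtype_injective
      rw [Subgroup.index_ker, hr, hk, Nat.card_congr (Subgroup.subgroupOfEquivOfLe hS2Z).toEquiv, hcs] at h1
      have h2 := key sZ
      rw [hsker, hcardC'] at h2
      exact Nat.eq_of_mul_eq_mul_left (Nat.card_pos (α := sZ.range)) (by rw [h1, ← h2, mul_comm])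
    obtain ⟨y, hy, hyZ⟩ : ∃ y, sq y = 1 ∧ y ∉ Z := by
      by_contra! hall
      have hle : sq.ker ≤ Z := fun y hy => hall y hy
      have h1 := sq.ker.card_mul_index
      rw [Subgroup.index_ker, hcardQ] at h1
      have h2 := Nat.mul_le_mul (Subgroup.card_le_of_le hle) ((Subgroup.card_le_of_le hsqle).trans hcz'.le)
      rw [h1] at h2
      have h3 : 0 < Nat.card Z * 2 ^ n := Nat.mul_pos Nat.card_pos (by positivity)
      have := hg.four_le
      nlinarith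
    obtain ⟨z, hz, hzz⟩ := hS2mem.1 ((QuotientGroup.eq_one_iff _).1 hy)
    set y' := y * z⁻¹ with hy'
    have hy'2 : y' * y' = 1 := by
      rw [hy', mul_assoc, ← mul_assoc z⁻¹ y, ← hzc (Z.inv_mem hz) y, mul_assoc y z⁻¹ z⁻¹, ← mul_assoc,
        ← hzz]
      group
    set x := y'⁻¹ * α y' with hxdef
    have hxE : x ∈ E := hδE y'
    have hxZ : x ∈ Z := by
      refine key2 x hxE ?_
      have h1 : (y' * x) * (y' * x) = 1 := by
        rw [hxdef, mul_inv_cancel_left, ← map_mul, hy'2, map_one]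
      have h2 : x * x = ⁅y'⁻¹, x⁆⁻¹ * ((y' * y')⁻¹ * ((y' * x) * (y' * x))) := by
        simp only [commutatorElement_def]; group
      rw [h2, h1, hy'2, inv_one, one_mul, mul_one]
      exact inv_mem (hCS2 (hcomC _ _))
    have hy'Z : y' ∈ Z := key2 y' hxZ (hy'2 ▸ one_mem S2)
    exact hyZ (by simpa [hy'] using Z.mul_mem hy'Z hz)
  refine ⟨hZC, ?_, hcomC, fun x => hZC ▸ hsqZ x, hZC ▸ hLinQ⟩
  rw [hcardQ, hZC, S.card]; ring

end Setup

end Cfsg.Agent.Lib.PairTwo
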